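import Mathlib
import Cfsg.Agent.H42.FvDefs

/-! Every vector of the adjoint module is conjugate into the Borel subalgebra. -/

set_option autoImplicit false

namespace Cfsg.Agent.H59.FvBor

open Equiv Cfsg.Lie H37 H40 H34 H29 Module H50.E83 Cfsg.Agent.H42.Fv
open scoped Matrix

theorem coe_prod (F : Type) [Field F] (L : List (Rt × F)) :
    ((L.map fun p => C8.xg F p.1 p.2).prod.1.1 : Matrix Ix Ix F) = xL F L := by
  induction L with
  | nil => rfl
  | cons p L ih =>
    rw [List.map_cons, List.prod_cons, Subgroup.coe_mul, Units.val_mul, ih, xg_eq, xL, xL,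
      List.map_cons, List.prod_cons]

theorem map_xL {A B : Type} [CommRing A] [CommRing B] (f : A →+* B) (L : List (Rt × A))
    (y : Ix → A) : xL B (L.map fun p => (p.1, f p.2)) *ᵥ (f ∘ y) = f ∘ (xL A L *ᵥ y) := by
  rw [xL_map]
  exact funext fun i => (f.map_mulVec _ _ i).symm

theorem supp_map {A B : Type} [CommRing A] [CommRing B] (f : A →+* B) {y : Ix → A}
    (h : Supp Pos y) : Supp Pos (f ∘ y) := fun r hr => h r fun e => hr (by
  rw [Function.comp_apply, e, map_zero])

theorem bor (dom : DomStmt) (pl : PlaceStmt) (iwa : IwaStmt) (bst : BstStmt) : BorStmt := by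
  intro w
  obtain ⟨L, y, hy, hi⟩ := dom
  let E := FractionRing R8
  let f : R8 →+* E := algebraMap R8 E
  have hv : AlgebraicIndependent K (f ∘ (xL R8 L *ᵥ y)) :=
    hi.map' (f := IsScalarTower.toAlgHom K R8 E) (IsFractionRing.injective R8 E)
  obtain ⟨O, hO⟩ := pl E Ix _ hv w
  obtain ⟨L', h1, h2⟩ := iwa E O
    ((L.map fun p => ((p.1, f p.2) : Rt × E)).map fun p => C8.xg E p.1 p.2).prod
  have h3 := bst E _ h2 _ (supp_map f hy)
  rw [ac_mul, ac, ac, coe_prod, coe_prod, map_xL] at h3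
  obtain ⟨A, ψ, h4, h5⟩ := hO (L'.map Prod.snd) fun s hs => by
    obtain ⟨p, hp, rfl⟩ := List.mem_map.1 hs
    exact h1 p hp
  generalize f ∘ (xL R8 L *ᵥ y) = v at h3 h5
  choose m hm using h5
  let L'' : List (Rt × A) := L'.attach.map fun p => (p.1.1, ⟨p.1.2, h4 _ (List.mem_map_of_mem p.2)⟩)
  have e1 : (L''.map fun p => ((p.1, A.val.toRingHom p.2) : Rt × E)) = L' := by
    rw [List.map_map]
    exact List.attach_map_subtype_val L'
  have h6 : Supp Pos (xL A L'' *ᵥ fun i => ⟨v i, m i⟩) := fun r hr => h3 r (by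
    have := congrFun (map_xL A.val.toRingHom L'' fun i => ⟨v i, m i⟩) (Sum.inr r)
    rw [e1] at this
    exact fun e => hr (Subtype.ext (this.symm.trans e)))
  have h7 := supp_map ψ.toRingHom h6
  rw [← map_xL] at h7
  refine ⟨((L''.map fun p => ((p.1, ψ.toRingHom p.2) : Rt × K)).map fun p => C8.xg K p.1 p.2).prod, ?_⟩
  rw [act_eq_ac, ac, coe_prod, show w = ψ.toRingHom ∘ fun i => ⟨v i, m i⟩ from
    funext fun i => (hm i).symm]
  exact h7

end Cfsg.Agent.H59.FvBor
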