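import Mathlib
import Cfsg.Agent.H53.AhDefs

/-! Self-duality of irreducible modules of groups with all elements real (project AH, piece SD). -/

set_option autoImplicit false
set_option linter.style.haveILetI false

namespace Cfsg.Agent.H59.AhSd

open Cfsg.Agent.H12.RO Cfsg.Agent.H53.AH Module

universe u

/-- A linear map over a finite extension field with non-zero trace over the ground field. -/
theorem exists_trace_ne {F L V : Type*} [Field F] [Finite F] [Ring L] [Algebra F L] [Finite L]
    (hL : IsField L) [AddCommGroup V] [Module F V] [Module L V] [IsScalarTower F L V] [Finite V]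
    [Nontrivial V] : ∃ ψ : V →ₗ[L] V, LinearMap.trace F V (ψ.restrictScalars F) ≠ 0 := by
  letI := hL.toField
  obtain ⟨v0, hv⟩ := exists_ne (0 : V)
  obtain ⟨f, hf⟩ := Module.Projective.exists_dual_eq_one L hv
  obtain ⟨c, hc⟩ := Algebra.trace_surjective F L 1
  refine ⟨(LinearMap.toSpanSingleton L V v0) ∘ₗ (c • f), ?_⟩
  have e : ((LinearMap.toSpanSingleton L V v0) ∘ₗ (c • f)).restrictScalars F =
      (LinearMap.toSpanSingleton L V v0).restrictScalars F ∘ₗ (c • f).restrictScalars F := rfl
  rw [e, LinearMap.trace_comp_comm']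
  have e2 : (c • f).restrictScalars F ∘ₗ (LinearMap.toSpanSingleton L V v0).restrictScalars F =
      Algebra.lmul F L c := by
    ext l
    simp [hf]
  rw [e2, ← Algebra.trace_apply, hc]
  exact one_ne_zero

/-- Simple modules with the same trace function are related by a non-zero map. -/
theorem exists_hom {F R V W : Type*} [Field F] [Finite F] [Ring R] [Algebra F R]
    [AddCommGroup V] [Module F V] [Module R V] [IsScalarTower F R V] [Finite V]
    [AddCommGroup W] [Module F W] [Module R W] [IsScalarTower F R W] [Finite W]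
    [IsSimpleModule R V] [IsSimpleModule R W]
    (h : ∀ x : R, LinearMap.trace F V (Module.toModuleEnd F (S := R) V x) =
      LinearMap.trace F W (Module.toModuleEnd F (S := R) W x)) :
    ∃ φ : V →ₗ[R] W, Function.Injective φ := by
  classical
  by_contra hn
  have h1 : ∀ φ : V →ₗ[R] W, φ = 0 := fun φ =>
    (LinearMap.injective_or_eq_zero φ).resolve_left fun e => hn ⟨φ, e⟩
  have h2 : ∀ φ : W →ₗ[R] V, φ = 0 := fun φ =>
    (LinearMap.bijective_or_eq_zero φ).resolve_left fun e =>
      hn ⟨(LinearEquiv.ofBijective φ e).symm, (LinearEquiv.ofBijective φ e).symm.injective⟩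
  haveI : Nontrivial V := IsSimpleModule.nontrivial R V
  haveI : Finite (End R V) := Finite.of_injective _ DFunLike.coe_injective
  have hL : IsField (End R V) := Finite.isDomain_to_isField _
  obtain ⟨ψ, hψ⟩ := exists_trace_ne (F := F) (V := V) hL
  haveI : IsSemisimpleModule R (V × W) :=
    isSemisimpleModule_of_isSemisimpleModule_submodule'
      (p := fun b : Bool => bif b then LinearMap.range (LinearMap.inl R V W)
        else LinearMap.range (LinearMap.inr R V W))
      (by rintro (_ | _) <;> exact .range _)
      (by rw [iSup_bool_eq]; exact LinearMap.sup_range_inl_inr)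
  let f : End (End R (V × W)) (V × W) :=
    { toFun := fun m => (ψ m.1, 0)
      map_add' := fun a b => by simp
      map_smul' := fun T m => by
        have a1 := h1 (LinearMap.snd R V W ∘ₗ T ∘ₗ LinearMap.inl R V W)
        have a2 := h2 (LinearMap.fst R V W ∘ₗ T ∘ₗ LinearMap.inr R V W)
        have a3 := ψ.map_smul (LinearMap.fst R V W ∘ₗ T ∘ₗ LinearMap.inl R V W) m.1
        have a4 : T m = T (m.1, 0) + T (0, m.2) := by rw [← map_add]; simp
        have b1 := congrArg (fun φ => φ (ψ m.1)) a1
        have b2 := congrArg (fun φ => φ m.2) a2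
        simp only [LinearMap.comp_apply, LinearMap.snd_apply, LinearMap.inl_apply,
          LinearMap.zero_apply, LinearMap.fst_apply, LinearMap.inr_apply, End.smul_def,
          RingHom.id_apply] at a3 b1 b2 ⊢
        rw [a4, Prod.fst_add, b2, add_zero, a3]
        exact Prod.ext rfl b1.symm }
  haveI := Fintype.ofFinite (V × W)
  obtain ⟨x, hx⟩ := jacobson_density f Finset.univ
  have e1 : Module.toModuleEnd F (S := R) V x = ψ.restrictScalars F :=
    LinearMap.ext fun v => (congrArg Prod.fst (hx (v, 0) (Finset.mem_univ _))).symm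
  have e2 : Module.toModuleEnd F (S := R) W x = 0 :=
    LinearMap.ext fun w => (congrArg Prod.snd (hx (0, w) (Finset.mem_univ _))).symm
  have := h x
  rw [e1, e2, map_zero] at this
  exact hψ this

theorem simple_of {F G V : Type*} [Field F] [Group G] [AddCommGroup V] [Module F V] [Nontrivial V]
    (ρ : Representation F G V)
    (h : ∀ U : Submodule F V, (∀ g, ∀ v ∈ U, ρ g v ∈ U) → U = ⊥ ∨ U = ⊤) :
    IsSimpleModule (MonoidAlgebra F G) ρ.asModule := by
  rw [← Representation.irreducible_iff_isSimpleModule_asModule]
  haveI : Nontrivial (Subrepresentation ρ) := ⟨⊥, ⊤, fun e => by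
    have := congrArg Subrepresentation.toSubmodule e
    exact bot_ne_top this⟩
  exact ⟨fun U => (h U.toSubmodule fun g v hv => U.apply_mem_toSubmodule g hv).imp
    (fun e => Subrepresentation.toSubmodule_injective e)
    (fun e => Subrepresentation.toSubmodule_injective e)⟩

theorem exists_form {F G V : Type*} [Field F] [Finite F] [Group G] [AddCommGroup V] [Module F V]
    [Finite V] [Nontrivial V] (ρ : Representation F G V)
    (h : ∀ U : Submodule F V, (∀ g, ∀ v ∈ U, ρ g v ∈ U) → U = ⊥ ∨ U = ⊤)
    (hr : ∀ g : G, IsConj g g⁻¹) :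
    ∃ φ : V →ₗ[F] Dual F V, Function.Injective φ ∧ ∀ g v w, φ (ρ g v) (ρ g w) = φ v w := by
  haveI := simple_of ρ h
  haveI : Finite (Dual F V) := Finite.of_injective _ DFunLike.coe_injective
  haveI := simple_of ρ.dual fun U hU => by
    rw [← Subspace.dualCoannihilator_dualAnnihilator_eq (W := U)]
    rcases h U.dualCoannihilator (fun g v hv => (Submodule.mem_dualCoannihilator _).2 fun f hf => by
      simpa [Module.Dual.transpose_apply] using
        (Submodule.mem_dualCoannihilator _).1 hv _ (hU g⁻¹ f hf)) with e | e
    · right; rw [e, Submodule.dualAnnihilator_bot]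
    · left; rw [e, Submodule.dualAnnihilator_top]
  haveI : Finite ρ.asModule := ‹Finite V›
  haveI : Finite ρ.dual.asModule := ‹Finite (Dual F V)›
  obtain ⟨φ, hφ⟩ := exists_hom (F := F) (R := MonoidAlgebra F G) (V := ρ.asModule)
    (W := ρ.dual.asModule) fun x => by
      change LinearMap.trace F V (ρ.asAlgebraHom x) =
        LinearMap.trace F (Dual F V) (ρ.dual.asAlgebraHom x)
      induction x using MonoidAlgebra.induction_on with
      | of g =>
        rw [Representation.asAlgebraHom_of, Representation.asAlgebraHom_of]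
        obtain ⟨c, hc⟩ := isConj_iff.1 (hr g)
        have := ρ.char_dual g
        rw [← hc, ρ.char_conj] at this
        exact this.symm
      | add a b ha hb => rw [map_add, map_add, map_add, map_add, ha, hb]
      | smul c a ha => rw [map_smul, map_smul, map_smul, map_smul, ha]
  refine ⟨ρ.dual.asModuleEquiv.toLinearMap ∘ₗ φ.restrictScalars F ∘ₗ ρ.asModuleEquiv.symm.toLinearMap,
    ρ.dual.asModuleEquiv.injective.comp (hφ.comp ρ.asModuleEquiv.symm.injective), fun g v w => ?_⟩
  simp only [LinearMap.comp_apply, LinearEquiv.coe_coe, LinearMap.restrictScalars_apply]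
  rw [Representation.asModuleEquiv_symm_map_rho, map_smul, Representation.asModuleEquiv_map_smul,
    Representation.asAlgebraHom_of]
  simp [Module.Dual.transpose_apply]

theorem sd_aux {G V : Type*} [Group G] [AddCommGroup V] [Finite V] [Nontrivial V]
    [DistribMulAction G V] {r : ℕ} [Fact r.Prime] [Module (ZMod r) V] (hi : Irr G V)
    (hc : ∀ g : G, IsConj g g⁻¹) : ∃ β : V →+ V →+ ZMod r, Frm G V β := by
  let ρ : G →* Module.End (ZMod r) V :=
    { toFun := fun g => (DistribSMul.toAddMonoidHom V g).toZModLinearMap r
      map_one' := LinearMap.ext fun v => by simp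
      map_mul' := fun g g' => LinearMap.ext fun v => by simp [mul_smul] }
  obtain ⟨φ, h1, h2⟩ := exists_form ρ (fun U hU => (hi U.toAddSubgroup hU).imp
    (fun e => Submodule.toAddSubgroup_injective e) (fun e => Submodule.toAddSubgroup_injective e)) hc
  refine ⟨LinearMap.toAddMonoidHom'.comp φ.toAddMonoidHom, fun v hv => h1 ?_, fun g v w => ?_⟩
  · rw [map_zero]
    exact LinearMap.ext fun w => by simpa using hv w
  · simpa [ρ] using h2 g v w

theorem sd : SdStmt.{u} := by
  intro G V _ _ _ _ _ r hr h0 hi hc
  haveI : Fact r.Prime := ⟨hr⟩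
  rcases subsingleton_or_nontrivial V with hV | hV
  · exact ⟨0, fun v _ => Subsingleton.elim _ _, fun _ _ _ => rfl⟩
  letI : Module (ZMod r) V := AddCommGroup.zmodModule h0
  exact sd_aux hi hc

end Cfsg.Agent.H59.AhSd
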