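import Mathlib
import Cfsg.Agent.H50.E72Defs

/-! A configuration of elements of order three in `G₂(3)`. -/

set_option autoImplicit false

namespace Cfsg.Agent.H59.E72EmbG

open Cfsg.Lie Cfsg.Agent.H50.E72 Multiplicative

theorem orb {Γ : Type} [Group Γ] (f : ZMod 3 → ZMod 3 → Γ)
    (h1 : ∀ i j, IsConj (f i j) (f i (j + 2 * i))) (h2 : ∀ i j, IsConj (f i j) (f (i + 2 * j) j))
    (i j i' j' : ZMod 3) (h : i ≠ 0 ∨ j ≠ 0) (h' : i' ≠ 0 ∨ j' ≠ 0) : IsConj (f i j) (f i' j') := by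
  have k1 : ∀ n i j, IsConj (f i j) (f i (j + n * i)) := fun n i j => by
    rcases (by decide : ∀ n : ZMod 3, n = 0 ∨ n = 2 ∨ n = 2 + 2) n with rfl | rfl | rfl
    · rw [zero_mul, add_zero]
    · exact h1 i j
    · rw [add_mul, ← add_assoc]; exact (h1 i j).trans (h1 i _)
  have k2 : ∀ n i j, IsConj (f i j) (f (i + n * j) j) := fun n i j => by
    rcases (by decide : ∀ n : ZMod 3, n = 0 ∨ n = 2 ∨ n = 2 + 2) n with rfl | rfl | rfl
    · rw [zero_mul, add_zero]
    · exact h2 i j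
    · rw [add_mul, ← add_assoc]; exact (h2 i j).trans (h2 _ j)
  have k : ∀ i j, i ≠ 0 ∨ j ≠ 0 → IsConj (f i j) (f 1 0) := fun i j h => by
    obtain ⟨a, b, c, e1, e2⟩ := (by decide : ∀ i j : ZMod 3, i ≠ 0 ∨ j ≠ 0 → ∃ a b c : ZMod 3,
      i + b * (j + a * i) = 1 ∧ j + a * i + c * (i + b * (j + a * i)) = 0) i j h
    have := ((k1 a i j).trans (k2 b _ _)).trans (k1 c _ _)
    rwa [e2, e1] at this
  exact (k i j h).trans (k i' j' h').symm

theorem cfg {Γ : Type} [Group Γ] (x : ℕ → ZMod 3 → Γ) (xa : ∀ r t u, x r (t + u) = x r t * x r u)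
    (x1 : ∀ r < 12, ∀ t, x r t = 1 → t = 0)
    (xc : ∀ r s, r < 12 → s < 12 → s ≠ r → s ≠ chevG2.neg r → ∀ t u, x s u * x r t =
      x r t * x s u * ((chevG2.commWord (ZMod 3) r s t u).map fun p => x p.1 p.2).prod) :
    CfgG Γ := by
  have x0 : ∀ r, x r 0 = 1 := fun r => by simpa using xa r 0 0
  have fl : ∀ L : List (ℕ × ZMod 3), ((L.filter fun p => p.2 ≠ 0).map fun p => x p.1 p.2).prod =
      (L.map fun p => x p.1 p.2).prod := fun L => by
    induction L with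
    | nil => rfl
    | cons p L ih =>
      by_cases hp : p.2 = 0
      · rw [List.filter_cons_of_neg (by simpa using hp), ih, List.map_cons, List.prod_cons, hp, x0,
          one_mul]
      · rw [List.filter_cons_of_pos (by simpa using hp), List.map_cons, List.prod_cons, ih,
          List.map_cons, List.prod_cons]
  have cj : ∀ r s t u (L : List (ℕ × ZMod 3)), (r < 12 ∧ s < 12 ∧ s ≠ r ∧ s ≠ chevG2.neg r ∧
      (chevG2.commWord (ZMod 3) r s t u).filter (fun p => p.2 ≠ 0) = L.filter fun p => p.2 ≠ 0) →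
      x s u * x r t = x r t * (x s u * (L.map fun p => x p.1 p.2).prod) := by
    rintro r s t u L ⟨h1, h2, h3, h4, h5⟩
    rw [xc r s h1 h2 h3 h4, ← fl, h5, fl, mul_assoc]
  have co : ∀ p ∈ [(6, 8), (6, 9), (6, 11), (10, 8), (10, 9), (10, 11), (7, 9), (7, 11), (4, 8),
      (4, 11), (5, 10), (8, 9), (8, 11), (9, 11)], ∀ t u, Commute (x p.1 t) (x p.2 u) := by
    intro p hp t u
    have := cj p.1 p.2 t u [] (by revert p t u; decide +kernel)
    simpa [Commute, SemiconjBy] using this.symm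
  have c1 : ∀ p ∈ [(7, 8, 9), (4, 9, 8), (6, 10, 11), (5, 11, 10)], ∀ u,
      (x p.1 1)⁻¹ * x p.2.1 u * x p.1 1 = x p.2.1 u * x p.2.2 (2 * u) := by
    intro p hp u
    have := cj p.1 p.2.1 1 u [(p.2.2, 2 * u)] (by revert p u; decide +kernel)
    rw [mul_assoc, this]
    simp
  have cc : ∀ {g y : Γ}, Commute g y → g⁻¹ * y * g = y := fun h => by
    rw [mul_assoc, ← h.eq, inv_mul_cancel_left]
  have ic : ∀ g y : Γ, IsConj y (g⁻¹ * y * g) := fun g y => isConj_iff.2 ⟨g⁻¹, by rw [inv_inv]⟩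
  have m3 : ∀ g a b c : Γ, g⁻¹ * (a * b * c) * g = g⁻¹ * a * g * (g⁻¹ * b * g) * (g⁻¹ * c * g) :=
    fun g a b c => by group
  have m2 : ∀ g a b : Γ, g⁻¹ * (a * b) * g = g⁻¹ * a * g * (g⁻¹ * b * g) := fun g a b => by group
  have c89 := co (8, 9) (by simp)
  have c8z := co (8, 11) (by simp)
  have c9z := co (9, 11) (by simp)
  simp only at c89 c8z c9z
  have a1 : ∀ k i j, (x 7 1)⁻¹ * (x 11 k * x 8 i * x 9 j) * x 7 1 =
      x 11 k * x 8 i * x 9 (j + 2 * i) := fun k i j => by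
    rw [m3, cc (co (7, 11) (by simp) _ _), cc (co (7, 9) (by simp) _ _), c1 (7, 8, 9) (by simp),
      add_comm, xa]
    simp only [mul_assoc]
  have a2 : ∀ k i j, (x 4 1)⁻¹ * (x 11 k * x 8 i * x 9 j) * x 4 1 =
      x 11 k * x 8 (i + 2 * j) * x 9 j := fun k i j => by
    rw [m3, cc (co (4, 11) (by simp) _ _), cc (co (4, 8) (by simp) _ _), c1 (4, 9, 8) (by simp),
      xa, ← (c89 _ _).eq]
    simp only [mul_assoc]
  have b1 : ∀ i j, (x 6 1)⁻¹ * (x 10 i * x 11 j) * x 6 1 = x 10 i * x 11 (j + 2 * i) := fun i j => by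
    rw [m2, cc (co (6, 11) (by simp) _ _), c1 (6, 10, 11) (by simp), add_comm, xa]
    simp only [mul_assoc]
  have b2 : ∀ i j, (x 5 1)⁻¹ * (x 10 i * x 11 j) * x 5 1 = x 10 (i + 2 * j) * x 11 j := fun i j => by
    rw [m2, cc (co (5, 10) (by simp) _ _), c1 (5, 11, 10) (by simp), xa,
      ← (co (10, 11) (by simp) _ _).eq]
    simp only [mul_assoc]
  have xp : ∀ r (n : ℕ), x r 1 ^ n = x r n := fun r n => by
    induction n with
    | zero => simp [x0]
    | succ n ih => rw [pow_succ, ih, Nat.cast_succ, xa]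
  let φ : Multiplicative E3 →* Γ := MonoidHom.mk'
    (fun e => x 11 (e.toAdd 0) * x 8 (e.toAdd 1) * x 9 (e.toAdd 2)) fun e e' => by
      simp only [toAdd_mul, Pi.add_apply, xa]
      have h1 := ((c8z (e.toAdd 1) (e'.toAdd 0)).mul_left (c9z (e.toAdd 2) _)).eq
      have h2 := (c89 (e'.toAdd 1) (e.toAdd 2)).eq
      calc _ = x 11 (e.toAdd 0) * x 11 (e'.toAdd 0) * x 8 (e.toAdd 1) *
            (x 8 (e'.toAdd 1) * x 9 (e.toAdd 2)) * x 9 (e'.toAdd 2) := by simp only [mul_assoc]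
        _ = x 11 (e.toAdd 0) * (x 11 (e'.toAdd 0) * (x 8 (e.toAdd 1) * x 9 (e.toAdd 2))) *
            x 8 (e'.toAdd 1) * x 9 (e'.toAdd 2) := by rw [h2]; simp only [mul_assoc]
        _ = _ := by rw [← h1]; simp only [mul_assoc]
  have φa : ∀ e : Multiplicative E3,
      φ e = x 11 (e.toAdd 0) * x 8 (e.toAdd 1) * x 9 (e.toAdd 2) := fun _ => rfl
  have φz : φ (ofAdd ![1, 0, 0]) = x 11 1 := by
    rw [φa]
    simp [x0]
  have two : ∀ t : ZMod 3, 2 * t = 0 → t = 0 := by decide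
  refine ⟨φ, x 6 1, x 10 1, (injective_iff_map_eq_one φ).2 fun e he => ?_, fun v w h hv hw => ?_,
    fun e => ?_, fun e => ?_, ?_, ?_, fun i hi j hj h => ?_⟩
  · rw [φa] at he
    have e1 := a1 (e.toAdd 0) (e.toAdd 1) (e.toAdd 2)
    have e2 := a2 (e.toAdd 0) (e.toAdd 1) (e.toAdd 2)
    rw [he, xa, ← mul_assoc, he, one_mul, mul_one, inv_mul_cancel] at e1
    rw [he, xa, ← mul_assoc, mul_assoc _ (x 8 (2 * _)), (c89 _ _).eq, ← mul_assoc, he, one_mul,
      mul_one, inv_mul_cancel] at e2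
    have z1 := two _ (x1 9 (by decide) _ e1.symm)
    have z2 := two _ (x1 8 (by decide) _ e2.symm)
    rw [z1, z2, x0, x0, mul_one, mul_one] at he
    have z0 := x1 11 (by decide) _ he
    refine toAdd.injective (funext fun i => ?_)
    fin_cases i
    exacts [z0, z1, z2]
  · rw [φa, φa, toAdd_ofAdd, toAdd_ofAdd, ← h]
    exact orb (fun i j => x 11 (v 0) * x 8 i * x 9 j) (fun i j => a1 _ i j ▸ ic _ _)
      (fun i j => a2 _ i j ▸ ic _ _) _ _ _ _ hv hw
  · exact ((co (6, 11) (by simp) _ _).mul_right (co (6, 8) (by simp) _ _)).mul_right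
      (co (6, 9) (by simp) _ _)
  · exact ((co (10, 11) (by simp) _ _).mul_right (co (10, 8) (by simp) _ _)).mul_right
      (co (10, 9) (by simp) _ _)
  · have := cj 10 6 1 1 [(11, 1)] (by decide +kernel)
    rw [φz, this, List.map_singleton, List.prod_singleton, (co (6, 11) (by simp) 1 1).eq,
      ← mul_assoc, (co (10, 11) (by simp) 1 1).eq]
    group
  · rw [xp, ← x0 10]
    rfl
  · rw [φz, xp, xp]
    have := orb (fun i j => x 10 i * x 11 j) (fun i j => b1 i j ▸ ic _ _) (fun i j => b2 i j ▸ ic _ _)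
      0 1 i j (by decide) (by revert i j; decide)
    rwa [x0, one_mul] at this

theorem embG : EmbGStmt :=
  cfg ((H34.cert (D := chevG2) (by simp)).xg (ZMod 3)) H34.Cert.xg_add
    (fun _ hr _ => (H34.Cert.xg_eq_one_iff hr).1) fun _ _ => H34.Cert.xg_comm (D := chevG2)

end Cfsg.Agent.H59.E72EmbG
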