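import Mathlib
import Cfsg.Agent.H6.E82Defs

/-! The subalgebra supported on two orthogonal roots is solvable. -/

set_option autoImplicit false

namespace Cfsg.Agent.H59.E82Solv

open Cfsg.Lie H37 H40 H34 H29 Cfsg.Agent.H6.E82

theorem br_span {S : Set V} {T : Submodule K V} (h : ∀ a ∈ S, ∀ b ∈ S, br a b ∈ T) {a b : V}
    (ha : a ∈ Submodule.span K S) (hb : b ∈ Submodule.span K S) : br a b ∈ T := by
  have h1 : Submodule.map₂ br (Submodule.span K S) (Submodule.span K S) ≤ T := by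
    rw [Submodule.map₂_span_span, Submodule.span_le]
    rintro _ ⟨a, ha, b, hb, rfl⟩
    exact h a ha b hb
  exact h1 (Submodule.apply_mem_map₂ _ ha hb)

theorem solv (rf : RfStmt) (brb : BrbStmt) (brc : BrcStmt) : SolvStmt := by
  intro α β h0 v hv
  obtain ⟨-, -, ps, -⟩ := rf
  obtain ⟨-, b2, b3', b4, b5, -, b7, -⟩ := brb
  obtain ⟨c1, c2, -, -, -, -, -, -, -, c10, -, c12, c13, -⟩ := brc
  let Ω : Set Rt := {α, ng α, β, ng β}
  have h1 : pr β α = 0 := (ps β α).trans h0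
  have h2 : ∀ r, pr r r = 2 := fun r => C8.R.pair_self r
  have key : ∀ r ∈ Ω, ∀ s ∈ Ω, (s = ng r ∨ 0 ≤ pr r s) ∧ 2 ∣ pr r s := by
    rintro r (rfl | rfl | rfl | rfl) s (rfl | rfl | rfl | rfl) <;>
      simp only [(c13 _ _).1, (c13 _ _).2, (c12 _).1, h0, h1, h2, true_or, true_and] <;> omega
  have ke : ∀ r ∈ Ω, ∀ s ∈ Ω, br (ee r) (ee s) = hr r ∨ br (ee r) (ee s) = 0 := fun r hr s hs =>
    (key r hr s hs).1.imp (fun e : s = ng r => e ▸ b5 r) (b7 r s)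
  have kh : ∀ r ∈ Ω, ∀ s ∈ Ω, br (hr s) (ee r) = 0 := fun r hr s hs => by
    rw [b4 _ (c1 s), c2, (CharP.intCast_eq_zero_iff K 2 _).2 (key s hs r hr).2, zero_smul]
  have m0 : ∀ i, v i ∈ Submodule.span K ((Cart : Set V) ∪ ee '' Ω) := fun i => by
    obtain ⟨h, hh, -, e⟩ := c10 (v i)
    rw [e]
    refine add_mem (Submodule.subset_span (.inl hh)) (Submodule.sum_mem _ fun r _ => ?_)
    by_cases hr : r ∈ Ω
    · exact Submodule.smul_mem _ _ (Submodule.subset_span (.inr ⟨r, hr, rfl⟩))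
    · simp only [Ω, Set.mem_insert_iff, Set.mem_singleton_iff, not_or] at hr
      rw [hv i r hr.1 hr.2.1 hr.2.2.1 hr.2.2.2, zero_smul]
      exact zero_mem _
  have m1 : ∀ i j, br (v i) (v j) ∈ Submodule.span K (hr '' Ω ∪ ee '' Ω) := fun i j => by
    refine br_span ?_ (m0 i) (m0 j)
    have k : ∀ h ∈ Cart, ∀ r ∈ Ω, br h (ee r) ∈ Submodule.span K (hr '' Ω ∪ ee '' Ω) :=
      fun h hh r hr => b4 h hh r ▸ Submodule.smul_mem _ _ (Submodule.subset_span (.inr ⟨r, hr, rfl⟩))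
    rintro _ (ha | ⟨r, hr, rfl⟩) _ (hb | ⟨s, hs, rfl⟩)
    · exact b3' _ ha _ hb ▸ zero_mem _
    · exact k _ ha s hs
    · exact b2 _ _ ▸ k _ hb r hr
    · rcases ke r hr s hs with e | e <;> rw [e]
      exacts [Submodule.subset_span (.inl ⟨r, hr, rfl⟩), zero_mem _]
  have m2 : ∀ i j k l, br (br (v i) (v j)) (br (v k) (v l)) ∈ Cart := fun i j k l => by
    refine br_span ?_ (m1 i j) (m1 k l)
    rintro _ (⟨r, hr, rfl⟩ | ⟨r, hr, rfl⟩) _ (⟨s, hs, rfl⟩ | ⟨s, hs, rfl⟩)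
    · exact b3' _ (c1 r) _ (c1 s) ▸ zero_mem _
    · exact kh s hs r hr ▸ zero_mem _
    · exact b2 _ _ ▸ kh r hr s hs ▸ zero_mem _
    · rcases ke r hr s hs with e | e <;> rw [e]
      exacts [c1 r, zero_mem _]
  exact b3' _ (m2 0 1 2 3) _ (m2 4 5 6 7)

end Cfsg.Agent.H59.E82Solv
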