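import Mathlib
import Cfsg.Agent.H2.FCDefs
import Cfsg.Agent.H66.SelfC
import Cfsg.Agent.H57.SpecCH
import Cfsg.Agent.H22.U33
import Cfsg.Agent.H13.M11Char
import Cfsg.Agent.H26.SLBasic
import Cfsg.Agent.H31.HermSU
import Cfsg.Agent.S0434
import Cfsg.Agent.S0243

/-! Frobenius' conjecture for four small simple groups. -/

set_option autoImplicit false

namespace Cfsg.Agent.H59.FCS

open Cfsg Cfsg.Agent.H2.FC Subgroup
open scoped LinearAlgebra.Projectivization

variable {G : Type*} [Group G] [Finite G]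

/-- The elements of order `p` for a self-centralizing Sylow subgroup of order `p`. -/
theorem fp {p m : ℕ} (hp : p.Prime) (hG : Nat.card G = p * m) (hm : ¬ p ∣ m)
    (h : ∀ g : G, p ∣ orderOf g → orderOf g = p) :
    ∃ e n, e ∣ p - 1 ∧ e * n = m ∧ n % p = 1 ∧ f G p = n * (p - 1) + 1 := by
  have := Fact.mk hp
  obtain ⟨P⟩ : Nonempty (Sylow p G) := inferInstance
  have hP : Nat.card P = p := (H58.card_sylow_of_eq P (k := 1) (by rwa [pow_one]) hm).trans (pow_one p)
  obtain ⟨e, n, h1, h2, h3, h4⟩ := H66.SC.exists_e (H66.SC.of_spec P hP h) P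
  refine ⟨e, n, h1, Nat.eq_of_mul_eq_mul_left hp.pos (by rw [← hG, ← h3, mul_assoc]), h4, ?_⟩
  have h5 := (normalizer ((P : Subgroup G) : Set G)).card_mul_index
  rw [h2, ← h3] at h5
  rw [prime_count P hP, P.card_eq_index_normalizer,
    ← Nat.eq_of_mul_eq_mul_left (h2 ▸ Nat.card_pos) h5]
  rfl

theorem cover {u v : ℕ} (h : ∀ g : G, g ^ u = 1 ∨ g ^ v = 1) : Nat.card G ≤ f G u + f G v := by
  rw [f_eq, f_eq, ← Set.ncard_univ]
  exact (Set.ncard_le_ncard (fun g _ => h g) (Set.toFinite _)).trans (Set.ncard_union_le _ _)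

theorem dvd_of_not {p m n : ℕ} (hp : p.Prime) (hn : n ∣ p * m) (h : ¬ p ∣ n) : n ∣ m :=
  ((Nat.Prime.coprime_iff_not_dvd hp).2 h).symm.dvd_of_dvd_mul_left hn

theorem fr_a7 : Fr (alternatingGroup (Fin 7)) := by
  intro n hn hf
  have := alternatingGroup.isSimpleGroup (α := Fin 7) (by simp)
  have hG : Nat.card (alternatingGroup (Fin 7)) = 2520 := by
    have := two_mul_nat_card_alternatingGroup (α := Fin 7)
    rw [Nat.card_perm, Nat.card_fin, show Nat.factorial 7 = 5040 from rfl] at this
    omega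
  by_cases h7 : 7 ∣ n
  · obtain ⟨e, k, h1, h2, h3, h4⟩ := fp (G := alternatingGroup (Fin 7)) (p := 7) (m := 360) (by norm_num) hG
      (by norm_num) fun g hg => by
        rw [← orderOf_coe, ← Equiv.Perm.lcm_cycleType] at hg ⊢
        obtain ⟨m, hm, h7⟩ := (Nat.prime_iff.1 (by norm_num : Nat.Prime 7)).exists_mem_multiset_dvd
          (hg.trans (Multiset.lcm_dvd.2 fun _ => Multiset.dvd_prod))
        have h1 := Equiv.Perm.sum_cycleType_le g.1
        have h2 := fun m => Equiv.Perm.two_le_of_mem_cycleType (σ := g.1) (n := m)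
        obtain ⟨t, e⟩ := Multiset.exists_cons_of_mem hm
        have h3 := Nat.le_of_dvd (by have := h2 m hm; omega) h7
        rw [e] at h1 h2 ⊢
        rw [Multiset.sum_cons, Fintype.card_fin] at h1
        rw [Multiset.eq_zero_of_forall_notMem (s := t) fun a ha => by
          have := h2 a (Multiset.mem_cons_of_mem ha)
          have := Multiset.single_le_sum (fun _ _ => Nat.zero_le _) a ha
          omega]
        simp; omega
    have h5 := f_mono (G := alternatingGroup (Fin 7)) h7
    have h6 := Nat.le_of_dvd (by norm_num) h1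
    refine .inr (of_big (H58.not_comm_of_not_prime (by rw [hG]; norm_num)) hn hf ?_)
    interval_cases e <;> omega
  · have := alternatingGroup.isPretransitive_of_three_le_card (Fin 7) (by simp)
    have h1 := (MulAction.stabilizer (alternatingGroup (Fin 7)) (0 : Fin 7)).index_mul_card
    rw [MulAction.index_stabilizer_of_transitive, hG, Nat.card_fin] at h1
    exact .inl (hsub' (MulAction.stabilizer _ (0 : Fin 7)) (c := 360) (by omega) (by omega) (dvd_of_not (by norm_num) (hG ▸ hn :) h7) hf)

theorem fr_l33 {F : Type*} [Field F] [Fintype F] (hF : Fintype.card F = 3) :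
    Fr (Matrix.ProjectiveSpecialLinearGroup (Fin 3) F) := by
  intro n hn hf
  have := H26.psl_isSimpleGroup (ι := Fin 3) (F := F) (.inl (by simp))
  have hG : Nat.card (Matrix.ProjectiveSpecialLinearGroup (Fin 3) F) = 5616 := by
    have := S0243.result hF 3 (by norm_num)
    rw [show ∏ i : Fin 3, (3 ^ 3 - 3 ^ (i : ℕ)) = 11232 by decide] at this
    norm_num at this
    omega
  by_cases h7 : 13 ∣ n
  · obtain ⟨e, k, h1, h2, h3, h4⟩ := fp (p := 13) (m := 432) (by norm_num) hG (by norm_num) fun g hg => by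
      have : orderOf g ∈ [1, 2, 3, 4, 6, 8, 13] := (H57.spec_psl3_of_card hF).le ⟨g, rfl⟩
      generalize orderOf g = m at this hg
      simp at this
      omega
    have h5 := f_mono (G := Matrix.ProjectiveSpecialLinearGroup (Fin 3) F) h7
    have h6 := Nat.le_of_dvd (by norm_num) h1
    refine .inr (of_big (H58.not_comm_of_not_prime (by rw [hG]; norm_num)) hn hf ?_)
    interval_cases e <;> omega
  · have hc : Nat.card (ℙ F (Fin 3 → F)) = 13 := by
      rw [Projectivization.card_of_finrank F _ (n := 3) (by simp), Nat.card_eq_fintype_card, hF]; rfl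
    obtain ⟨a⟩ : Nonempty (ℙ F (Fin 3 → F)) := (Nat.card_ne_zero.1 (by omega)).1
    have h1 := (MulAction.stabilizer (Matrix.ProjectiveSpecialLinearGroup (Fin 3) F) a).index_mul_card
    rw [MulAction.index_stabilizer_of_transitive, hG, hc] at h1
    exact .inl (hsub' (MulAction.stabilizer _ a) (c := 432) (by omega) (by omega) (dvd_of_not (by norm_num) (hG ▸ hn :) h7) hf)

theorem fr_u33 {F : Type*} [Field F] [Fintype F] (hF : Fintype.card F = 9) : Fr (PSU 3 F 3) := by
  intro n hn hf
  have hF' : Fintype.card F = 3 ^ 2 := hF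
  have := H31.isSimpleGroup_PSU hF' (n := 3) le_rfl (by norm_num)
  have hG := H22.U33.card_psu hF'
  have : Finite (PSU 3 F 3) := Nat.finite_of_card_ne_zero (by omega)
  have hs : ∀ g : PSU 3 F 3, orderOf g ∈ [1, 2, 3, 4, 6, 7, 8, 12] := fun g =>
    (H57.spec_psu3_of_card hF).le ⟨g, rfl⟩
  obtain ⟨e, k, h1, h2, h3, h4⟩ := fp (p := 7) (m := 864) (by norm_num) hG (by norm_num) fun g hg => by
    have := hs g
    generalize orderOf g = m at this hg
    simp at this
    omega
  have h6 := Nat.le_of_dvd (by norm_num) h1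
  have h8 : f (PSU 3 F 3) 7 = 1729 := by interval_cases e <;> omega
  by_cases h7 : 7 ∣ n
  · have h5 := f_mono (G := PSU 3 F 3) h7
    exact .inr (of_big (H58.not_comm_of_not_prime (by rw [hG]; norm_num)) hn hf (by omega))
  have hd : n ∣ 864 := dvd_of_not (by norm_num) (hG ▸ hn :) h7
  by_cases h24 : 24 ∣ n
  · have := f_mono (G := PSU 3 F 3) h24
    have := Nat.le_of_dvd (by norm_num) hd
    have := cover (G := PSU 3 F 3) (u := 24) (v := 7) fun g => by
      have := hs g
      rw [← orderOf_dvd_iff_pow_eq_one, ← orderOf_dvd_iff_pow_eq_one]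
      generalize orderOf g = m at this
      revert m; decide
    omega
  obtain h | h : n ∣ 216 ∨ n ∣ 2 ^ 5 := by
    have := Nat.mem_divisors.2 ⟨hd, by norm_num⟩
    revert h24
    clear * - this
    revert n; decide +kernel
  · obtain ⟨e⟩ := H22.U33.nonempty_equiv hF'
    exact .inl (hsub' ((H22.U33.BB _).map e.toMonoidHom) (c := 216)
      ((card_map_of_injective e.injective).trans (H22.U33.card_BB hF')) (by omega) h hf)
  · exact .inl (hpow Nat.prime_two (by rw [hG]; norm_num) (by rw [hG]; norm_num) h hf)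

theorem fr_m11 (h : IsM11 G) : Fr G := by
  intro n hn hf
  have := h.1
  have hG := h.2
  have := Fintype.ofFinite G
  have := H13.M11.fact11
  have := H13.M11.fact5
  obtain ⟨P⟩ : Nonempty (Sylow 11 G) := inferInstance
  obtain ⟨Q⟩ : Nonempty (Sylow 5 G) := inferInstance
  obtain ⟨T⟩ : Nonempty (Sylow 3 G) := inferInstance
  obtain ⟨D⟩ := (H13.M11.data11 hG P).2.2
  have h1 := prime_count P (H13.M11.card11 hG P)
  have h2 := prime_count' Q (H13.M11.card5 hG Q) (H13.M11.data5 hG D Q).2.1
  have h3 := f_pos (G := G) 5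
  rw [H13.M11.card_sylow11 hG] at h1
  have nc := H13.M11.ncomm hG
  by_cases h11 : 11 ∣ n
  · have h4 := f_mono (G := G) h11
    by_cases h5 : 5 ∣ n
    · have := f2 (G := G) (by norm_num) h11 h5
      exact .inr (of_big nc hn hf (by omega))
    have hd : n ∣ 1584 := dvd_of_not (by norm_num) (hG ▸ hn :) h5
    obtain ⟨k, hk⟩ := hd
    obtain rfl : k = 1 := by
      rcases k with _ | _ | k
      · omega
      · rfl
      · nlinarith
    exact (hprime nc (p := 5) (by norm_num) (by omega) hf).elim
  have hd : n ∣ 720 := dvd_of_not (by norm_num) (hG ▸ hn :) h11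
  by_cases h5 : 5 ∣ n
  · have := f_mono (G := G) h5
    have := Nat.le_of_dvd (by norm_num) hd
    omega
  exact .inl (hsub' _ (S0434.result h T) (by omega) (dvd_of_not (p := 5) (by norm_num) hd h5) hf)

end Cfsg.Agent.H59.FCS
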