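import Mathlib
import Cfsg.Agent.H98.GbL

/-! Project GB (S4536), piece MAIN: the bound for the kernel of the determinant. -/

set_option autoImplicit false
open Cfsg Finset
open scoped MatrixGroups

namespace Cfsg.Agent.H59.GbMain

open Cfsg.Agent.H98.GB

universe u

theorem prank_congr {X Y : Type*} [Group X] [Group Y] {p s : ℕ} (e : X ≃* Y)
    (h : PRankLE p s Y) : PRankLE p s X := by
  intro A hA hp
  have h1 := h (A.map e.toMonoidHom) (by infer_instance) (by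
    rintro _ ⟨a, ha, rfl⟩
    rw [← map_pow, hp a ha, map_one])
  rwa [Subgroup.card_map_of_injective e.injective] at h1

theorem sec_of_inj {P D : Type*} [Group P] [Group D] {p s : ℕ} (f : P →* D)
    (hf : Function.Injective f) (h : SectionalPRankLE p s D) : SectionalPRankLE p s P := by
  intro H N hN
  let e : H ≃* H.map f := H.equivMapOfInjective f hf
  have : (N.map (e : H →* H.map f)).Normal := hN.map _ e.surjective
  exact prank_congr (QuotientGroup.congr N (N.map (e : H →* H.map f)) e rfl) (h _ _)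

theorem exists_inj {G P : Type*} [Group G] [Group P] {N D' : Subgroup G} {D : Subgroup N}
    (hDN : D' ⊓ N = D.map N.subtype) (f : P →* G) (hf : Function.Injective f)
    (h1 : ∀ x, f x ∈ D') (h2 : ∀ x, f x ∈ N) : ∃ g : P →* D, Function.Injective g := by
  have h3 : ∀ x, f.codRestrict N h2 x ∈ D := by
    intro x
    have : f x ∈ D.map N.subtype := hDN ▸ ⟨h1 x, h2 x⟩
    obtain ⟨y, hy, hyx⟩ := this
    have : f.codRestrict N h2 x = y := Subtype.ext hyx.symm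
    rw [this]; exact hy
  refine ⟨(f.codRestrict N h2).codRestrict D h3, fun a b hab => hf ?_⟩
  exact congrArg (fun z : D => ((z : N) : G)) hab

theorem card_le_gcd {G F : Type*} [Group G] [Finite G] [Field F] [Fintype F] (d : G →* Fˣ)
    {p s : ℕ} [Fact p.Prime] {D' E : Subgroup G} {D : Subgroup d.ker}
    (hDN : D' ⊓ d.ker = D.map d.ker.subtype) (hs : SectionalPRankLE p s D) (hE : E ≤ D')
    (hc : ∀ a ∈ E, ∀ b ∈ E, a * b = b * a) (hp : ∀ a ∈ E, a ^ p = 1) :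
    Nat.card E ≤ p ^ s * Nat.gcd (Fintype.card F - 1) p := by
  classical
  let δ : E →* Fˣ := d.comp E.subtype
  obtain ⟨g, hg⟩ := exists_inj hDN (E.subtype.comp δ.ker.subtype)
    (E.subtype_injective.comp δ.ker.subtype_injective) (fun x => hE x.1.2) (fun x => x.2)
  have h1 : Nat.card δ.ker ≤ p ^ s := H19.card_le_of_sectional hs g hg
    (fun a b => Subtype.ext (Subtype.ext (hc _ a.1.2 _ b.1.2)))
    (fun a => Subtype.ext (Subtype.ext (hp _ a.1.2)))
  have h2 : δ.range ≤ (powMonoidHom p : Fˣ →* Fˣ).ker := by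
    rintro _ ⟨x, rfl⟩
    rw [MonoidHom.mem_ker, powMonoidHom_apply, ← map_pow]
    have : x ^ p = 1 := Subtype.ext (hp _ x.2)
    rw [this, map_one]
  have h3 : Nat.card δ.range ≤ Nat.gcd (Fintype.card F - 1) p := by
    have := Subgroup.card_le_of_le h2
    rwa [IsCyclic.card_powMonoidHom_ker, Nat.card_units, Nat.card_eq_fintype_card (α := F)] at this
  rw [← δ.ker.card_mul_index, Subgroup.index_ker]
  exact Nat.mul_le_mul h1 h3

theorem main0 (hS : SPLStmt.{u}) (hE : SECStmt.{u}) (hT : ETAStmt.{u})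
    (hK : BLKStmt.{u}) (hB : BASBStmt.{u}) (h1 : R1cStmt.{u}) (hX : EXCStmt.{u})
    (h3 : TH3Stmt.{u}) (hU : SUMStmt.{u}) (ha : CAStmt.{u}) (hb : CBStmt.{u}) :
    MAINStmt.{u} := by
  intro F _ _ _ C hn B hBb D hD s hs
  classical
  have hM := C.hM
  obtain ⟨B', hB', hcov⟩ := H22.exists_covering _ hM.2.1 hBb
  obtain ⟨D', hD', hDN⟩ := hcov.exists_dg_inf_eq hM hB' hBb
    ((H18.isDefectGroup_iff_bid hM hBb).1 hD)
  obtain ⟨χ, hχ⟩ := id hB'
  obtain ⟨Λ0, hlab, hbas, ψ, hψ, hψe⟩ := hB F C C.n0 le_rfl χ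
  rw [← hχ] at hψ
  have hB'e : B' = blockOf C.M (C.sC Λ0 C.n0) := by
    rw [← hψe]; exact H17.block_eq_blockOf hM.2.1 hB' hψ
  obtain ⟨-, hK2, hK3⟩ := hK F C C.n0 le_rfl
  have hsub : ∀ Cs : Set C.Lb, Λ0 ∈ Cs → H17.LamClosed C.M (C.XC C.n0 Cs) →
      B' ⊆ C.XC C.n0 Cs := fun Cs h0 hc χ' hχ' =>
    hc ψ ⟨Λ0, h0, hlab, hψe⟩ χ' (H17.block_lam_eq hM.2.1 hB' hψ hχ')
  have hcl : Λ0 ∈ C.cls Λ0 := fun Γ _ => ⟨rfl, rfl⟩
  obtain ⟨⟨c, hc⟩, ha2⟩ := ha F C C.n0 le_rfl Λ0 hlab hbas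
  have hcA : c ∈ C.A1 Λ0 := (hc c).2 (AddSubgroup.mem_zmultiples c)
  have hcq : C.qL * c = c := by
    have := (Finset.mem_filter.1 hcA).1
    exact (Finset.mem_filter.1 this).2.1
  obtain ⟨-, -, -, -, hT5, hT6⟩ := hT F C
  have hord : orderOf (dl (C.eta c) C.n0) = #(C.A1 Λ0) := by
    rw [hT5 c C.n0 hcq hn, ← Nat.card_zmultiples]
    exact Nat.subtype_card _ hc
  have hpos : 0 < #(C.A1 Λ0) := Finset.card_pos.2 ⟨c, hcA⟩
  have hker : ∀ η : Fˣ →* ℂˣ,
      (Matrix.GeneralLinearGroup.det : GL (Fin C.n0) F →* Fˣ).ker ≤ (dl η C.n0).ker := by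
    intro η x hx
    rw [MonoidHom.mem_ker] at hx ⊢
    change η (Matrix.GeneralLinearGroup.det x) = 1
    rw [hx, map_one]
  let A : Finset (GL (Fin C.n0) F →* ℂˣ) :=
    (univ.filter fun c : C.L => C.qL * c = c).image fun c => dl (C.eta c) C.n0
  have hA : ∀ a, a ∈ A ↔
      (Matrix.GeneralLinearGroup.det : GL (Fin C.n0) F →* Fˣ).ker ≤ a.ker := by
    intro a
    constructor
    · intro h
      obtain ⟨c', -, rfl⟩ := Finset.mem_image.1 h
      exact hker _
    · intro h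
      obtain ⟨c', ⟨h1, h2⟩, -⟩ := hT6 C.n0 hn a h
      exact Finset.mem_image.2 ⟨c', Finset.mem_filter.2 ⟨Finset.mem_univ _, h1⟩, h2.symm⟩
  obtain ⟨t, ht⟩ := h3 F C C.n0 le_rfl Λ0 hlab hbas c hcA
  have hcovX : H22.Covers _ (C.XC C.n0 (C.cls Λ0)) B := by
    obtain ⟨χ1, hχ1, θ, hθ, ho⟩ := hcov
    exact ⟨χ1, hsub _ hcl (hK2 Λ0) hχ1, θ, hθ, ho⟩
  have hspl := hS (GL (Fin C.n0) F) C.p C.M hM (dl (C.eta c) C.n0) _ (by
      intro x y
      rw [MonoidHom.mem_ker, map_mul, map_mul, map_mul, map_inv, map_inv, mul_inv_cancel_comm,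
        mul_inv_cancel]) (hker _) _ (hK2 Λ0) t ht B hBb hcovX A hA
  obtain ⟨i, hi1, hi2, hi3⟩ := hU F C C.n0 le_rfl hn Λ0 hlab hbas A hA
  have hmain : #(C.A1 Λ0) * blockRank C.p B ≤ C.p ^ i * ∑ c ∈ C.A' Λ0, C.fixB C.n0 Λ0 c := by
    rw [← hord]; exact hspl.trans hi3
  obtain ⟨E, hED, hEc, hEa, hEp⟩ := h1 F C C.n0 le_rfl Λ0 hlab hbas D' (hB'e ▸ hD')
  have hgcd := card_le_gcd _ hDN hs hED hEa hEp
  rw [hEc] at hgcd
  have hp1 := C.hp.one_lt
  by_cases hpq : C.p ∣ Fintype.card F - 1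
  · rcases hb F C hpq C.n0 le_rfl hn Λ0 hlab hbas i hi2 with h | ⟨hp2, Γ, m, k, hΓ, hm, hsup, hle, hk⟩
    · have h4 := Nat.le_of_mul_le_mul_left (hmain.trans h) hpos
      refine h4.trans (Nat.pow_le_pow_right hp1.le ?_)
      have h5 : C.p ^ C.ww Λ0 ≤ C.p ^ (s + 1) := by
        rw [pow_succ]
        exact hgcd.trans (Nat.mul_le_mul_left _ (Nat.gcd_le_right _ (by omega)))
      have := (Nat.pow_le_pow_iff_right hp1).1 h5
      omega
    · have h4 := Nat.le_of_mul_le_mul_left (hmain.trans hle) hpos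
      have hm0 : 0 < m := by
        rcases Nat.eq_zero_or_pos m with h0 | h0
        · rw [h0, mul_zero] at hm; omega
        · exact h0
      have hodd : Odd (Fintype.card F) := by
        have := Fintype.one_lt_card (α := F)
        rw [hp2] at hpq
        obtain ⟨r, hr⟩ := hpq
        exact ⟨r, by omega⟩
      have hsec := hE F hodd m s (fun P hP => by
        obtain ⟨f, hf, hf'⟩ := hX F C hpq Γ hΓ m C.n0 hm0 hm le_rfl B' hB'
          (hsub _ hsup (hK3 Γ)) D' hD' P (by rw [hp2]; exact hP)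
        obtain ⟨g, hg⟩ := exists_inj hDN f hf (fun x => (hf' x).1) (fun x => (hf' x).2)
        have hs2 : SectionalPRankLE 2 s D := by rw [← hp2]; exact hs
        exact sec_of_inj g hg hs2)
      have hks : k ≤ s := by
        rcases hk with ⟨a, b⟩ | ⟨a, b⟩ | ⟨a, b, d⟩ | ⟨a, b⟩
        · rw [b]; exact hsec.1 a
        · rw [b]; exact hsec.2.1 a
        · rw [d]; refine hsec.2.2.1 a ?_
          rw [hp2, b] at hi1; exact hi1
        · rw [b]; exact hsec.2.2.2 a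
      refine h4.trans ?_
      rw [hp2]
      exact Nat.pow_le_pow_right (by omega) hks
  · have hi0 : i = 0 := by
      by_contra h0
      exact hpq ((dvd_pow_self _ h0).trans hi1)
    rw [hi0, pow_zero, one_mul] at hmain
    have h4 := Nat.le_of_mul_le_mul_left (hmain.trans ha2) hpos
    have h5 : Nat.gcd (Fintype.card F - 1) C.p = 1 :=
      ((Nat.Prime.coprime_iff_not_dvd C.hp).2 hpq).symm
    rw [h5, mul_one] at hgcd
    exact h4.trans hgcd

theorem main (hS : SPLStmt.{u}) (hE : SECStmt.{u}) (_hL : LABStmt.{u}) (hT : ETAStmt.{u})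
    (_hI : IRRStmt.{u}) (hK : BLKStmt.{u}) (hB : BASBStmt.{u}) (h1 : R1cStmt.{u})
    (hX : EXCStmt.{u}) (h3 : TH3Stmt.{u}) (hU : SUMStmt.{u}) (ha : CAStmt.{u})
    (hb : CBStmt.{u}) : MAINStmt.{u} :=
  main0 hS hE hT hK hB h1 hX h3 hU ha hb

end Cfsg.Agent.H59.GbMain
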