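import Mathlib
import Cfsg.Agent.H50.L81Defs
import Cfsg.Agent.H80.FvEnt

/-! Project L81, piece TOP: highest root vectors of a set of roots. -/

set_option autoImplicit false

namespace Cfsg.Agent.H59.L81Top

open Equiv Cfsg.Lie H37 H40 H34 H29 Module H50.E83 H42.Fv H50.L81
open scoped Matrix

theorem ee_inl (r : Rt) (i : Rk) : ee r (Sum.inl i) = 0 := rfl

theorem ee_ne {r s : Rt} (h : r ≠ s) : ee r (Sum.inr s) = 0 :=
  if_neg fun e => h (Fin.ext e.symm)

theorem ee_self (r : Rt) : ee r (Sum.inr r) = 1 := if_pos rfl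

theorem xg_ee {r s : Rt} (h1 : r ≠ ng s) (h2 : ¬ ∃ t, Sum2 s r t) (t : K) :
    act (C8.xg K s t) (ee r) = ee r := by
  obtain ⟨cf, hcf, he⟩ := H80.FvEnt.entS
  obtain ⟨e1, e2⟩ := he K s t (ee r)
  have e : act (C8.xg K s t) (ee r) = xR K s t *ᵥ ee r := by
    rw [act_eq_ac, ac, xg_eq]
  have hn : ee r (Sum.inr (C8.R.neg s)) = 0 := ee_ne h1
  have ha : al s (ee r) = 0 := Finset.sum_eq_zero fun i _ => by rw [ee_inl, zero_mul]
  rw [e]
  funext j
  rcases j with i | u
  · rw [e1 i, hn, mul_zero, zero_mul, add_zero]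
  · rw [e2 u, hn, ha, zero_mul, mul_zero, neg_zero, sub_zero, ite_self, add_zero,
      Finset.sum_eq_zero, add_zero]
    intro s' _
    by_cases h : r = s'
    · subst h
      have : cf s r u = 0 := by
        by_contra h0
        exact h2 ⟨u, hcf s r u h0⟩
      rw [this, Int.cast_zero, zero_mul, zero_mul]
    · rw [ee_ne h, mul_zero]

theorem li : LinearIndependent K (fun r : Rt => ee r) := by
  rw [Fintype.linearIndependent_iff]
  intro g hg r
  have := congrFun hg (Sum.inr r)
  rw [Finset.sum_apply, Finset.sum_eq_single r] at this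
  · simpa [ee_self] using this
  · intro s _ hs
    rw [Pi.smul_apply, ee_ne hs, smul_zero]
  · intro h
    exact absurd (Finset.mem_univ r) h

theorem top : TopStmt := by
  refine ⟨fun A r hr x hx => ?_, fun S U hS => ?_, fun z χ hz A hA x hx => ?_⟩
  · let Q : Subgroup GK :=
      { carrier := {g | act g (ee r) = ee r}
        one_mem' := by
          change act 1 (ee r) = ee r
          rw [map_one]; rfl
        mul_mem' := fun {a b} ha hb => by
          change act (a * b) (ee r) = ee r
          rw [act_mul, hb, ha]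
        inv_mem' := fun {a} ha => by
          change act a⁻¹ (ee r) = ee r
          conv_lhs => rw [← show act a (ee r) = ee r from ha]
          exact act_inv_act a _ }
    refine (Split.U_le (K := Q) fun s hs y hy => ?_) hx
    obtain ⟨t, rfl⟩ := Cert.mem_X.1 hy
    exact xg_ee (hr s hs).1 (hr s hs).2 t
  · have h1 : LinearIndependent K (fun r : S => (⟨ee r.1, hS r.1 r.2⟩ : U)) :=
      LinearIndependent.of_comp U.subtype (li.comp Subtype.val Subtype.val_injective)
    have := Fintype.ofFinite S
    rw [← Nat.card_coe_set_eq, Nat.card_eq_fintype_card]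
    exact h1.fintype_card_le_finrank
  · refine Subgroup.mem_centralizer_singleton_iff.1
      ((Split.U_le (K := Subgroup.centralizer {z}) fun s hs y hy => ?_) hx) |>.symm
    obtain ⟨t, rfl⟩ := Cert.mem_X.1 hy
    have h1 := hz.conj_xg s t
    rw [(hA s hs).neg_one_zpow, Units.val_one, one_mul, mul_inv_eq_iff_eq_mul] at h1
    exact Subgroup.mem_centralizer_singleton_iff.2 h1.symm

end Cfsg.Agent.H59.L81Top
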