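import Mathlib
import Cfsg.Agent.H58.SWDefs

/-! Project SW (S3694), piece KF: the block fields of an abelian invariant subgroup. -/

set_option autoImplicit false
set_option linter.unusedVariables false
open Matrix Cfsg

namespace Cfsg.Agent.H59.SwKf

open Cfsg.Agent.H58.SW

variable {F : Type} [Field F] {n : ℕ}

theorem ext_mv {x y : Mt n F} (h : ∀ w, x *ᵥ w = y *ᵥ w) : x = y := by
  apply Matrix.toLin'.injective
  ext1 i
  apply LinearMap.ext
  intro a
  simp only [LinearMap.comp_apply, Matrix.toLin'_apply]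
  exact h _

theorem ex3 (K : Type) [Field K] [Finite K] (h : 2 < Nat.card K) : ∃ c : K, c ≠ 0 ∧ c ≠ 1 := by
  by_contra hc
  push Not at hc
  have hs : Function.Surjective (![0, 1] : Fin 2 → K) := by
    intro a
    by_cases h0 : a = 0
    · exact ⟨0, h0.symm⟩
    · exact ⟨1, (hc a h0).symm⟩
  have := Nat.card_le_card_of_surjective _ hs
  simp at this
  omega

theorem line_of_rank {x : Mt n F} (h : x.rank ≤ 1) : ∃ v : Vc n F, (∃ y, x *ᵥ y = v) ∧
    ∀ y, ∃ c : F, x *ᵥ y = c • v := by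
  have h' : Module.finrank F (LinearMap.range x.mulVecLin) ≤ 1 := h
  obtain ⟨v, hv⟩ := finrank_le_one_iff.1 h'
  obtain ⟨y0, hy0⟩ := v.2
  refine ⟨v.1, ⟨y0, hy0⟩, fun y => ?_⟩
  obtain ⟨c, hc⟩ := hv ⟨x *ᵥ y, y, rfl⟩
  exact ⟨c, (congrArg Subtype.val hc).symm⟩

/-- a commutative algebra with a field block containing a non-scalar element -/
structure Fb (L : Submodule F (Mt n F)) (e k : Mt n F) : Prop where
  comm : ∀ x ∈ L, ∀ y ∈ L, x * y = y * x
  he : e ∈ L
  hk : k ∈ L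
  ee : e * e = e
  e0 : e ≠ 0
  ek : e * k = k
  fld : ∀ b ∈ L, e * b = 0 ∨ ∃ b' ∈ L, e * b * b' = e
  ns : ∀ a : F, k ≠ a • e

variable {L : Submodule F (Mt n F)} {e k : Mt n F}

theorem Fb.inv (f : Fb L e k) {b : Mt n F} (hb : b ∈ L) (h1 : e * b = b) (h0 : b ≠ 0) :
    ∃ b', b * b' = e ∧ b' * b = e := by
  rcases f.fld b hb with h | ⟨b', hb', h⟩
  · exact absurd (h1 ▸ h) h0
  · rw [h1] at h
    exact ⟨b', h, by rw [f.comm b' hb' b hb, h]⟩

theorem Fb.noeig (f : Fb L e k) {v : Vc n F} {l : F} (h1 : e *ᵥ v = v) (h2 : k *ᵥ v = l • v) :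
    v = 0 := by
  obtain ⟨b', -, hb⟩ := f.inv (b := k - l • e) (L.sub_mem f.hk (L.smul_mem _ f.he))
    (by rw [mul_sub, f.ek, mul_smul_comm, f.ee]) (sub_ne_zero.2 (f.ns l))
  rw [← h1, ← hb, ← mulVec_mulVec, sub_mulVec, smul_mulVec, h1, h2, sub_self, mulVec_zero]

theorem Fb.two_le (f : Fb L e k) : 2 ≤ e.rank := by
  by_contra h
  obtain ⟨v, ⟨y, hy⟩, hv⟩ := line_of_rank (x := e) (by omega)
  have h1 : e *ᵥ v = v := by rw [← hy, mulVec_mulVec, f.ee]
  obtain ⟨c, hc⟩ := hv (k *ᵥ v)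
  rw [mulVec_mulVec, f.ek] at hc
  have h0 := f.noeig h1 hc
  apply f.e0
  apply ext_mv
  intro w
  obtain ⟨d, hd⟩ := hv w
  rw [hd, h0, smul_zero, zero_mulVec]

theorem sq_zero {ν : Mt n F} (hr : ν.rank = 1) (hn : IsNilpotent ν) : ν * ν = 0 := by
  obtain ⟨v, -, hv⟩ := line_of_rank hr.le
  obtain ⟨l, hl⟩ := hv v
  obtain ⟨m, hm⟩ := hn
  have h1 : ∀ j : ℕ, (ν ^ j) *ᵥ v = l ^ j • v := by
    intro j
    induction j with
    | zero => simp
    | succ j ih => rw [pow_succ, ← mulVec_mulVec, hl, mulVec_smul, ih, smul_smul, pow_succ']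
  have h2 : ν *ᵥ v = 0 := by
    have h3 := h1 m
    rw [hm, zero_mulVec] at h3
    rcases smul_eq_zero.1 h3.symm with h | h
    · rw [hl, eq_zero_of_pow_eq_zero h, zero_smul]
    · rw [h, mulVec_zero]
  apply ext_mv
  intro w
  obtain ⟨d, hd⟩ := hv w
  rw [← mulVec_mulVec, hd, mulVec_smul, h2, smul_zero, zero_mulVec]

theorem Fb.dne (f : Fb L e k) {ν : Mt n F} (hr : ν.rank = 1) (h1 : e * ν = ν) :
    ν * k ≠ k * ν := by
  intro h
  obtain ⟨v, ⟨y, hy⟩, hv⟩ := line_of_rank hr.le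
  obtain ⟨c, hc⟩ := hv (k *ᵥ y)
  rw [mulVec_mulVec, h, ← mulVec_mulVec, hy] at hc
  have h0 := f.noeig (by rw [← hy, mulVec_mulVec, h1]) hc
  have : ν = 0 := by
    apply ext_mv
    intro w
    obtain ⟨d, hd⟩ := hv w
    rw [hd, h0, smul_zero, zero_mulVec]
  rw [this, Matrix.rank_zero] at hr
  omega

theorem Fb.dinv (f : Fb L e k) {ν : Mt n F} (hr : ν.rank = 1) (hs : ν * ν = 0) (h1 : e * ν = ν)
    (hD : (1 + ν) * k * (1 - ν) ∈ L) :
    ∃ b', (ν * k * (1 - ν) - k * ν) * b' = e ∧ b' * (ν * k * (1 - ν) - k * ν) = e := by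
  have e1 : ν * k * (1 - ν) - k * ν = (1 + ν) * k * (1 - ν) - k := by noncomm_ring
  refine f.inv (by rw [e1]; exact L.sub_mem hD f.hk) ?_ ?_
  · rw [mul_sub, ← mul_assoc, ← mul_assoc, ← mul_assoc, h1, f.ek]
  · intro h
    apply f.dne hr h1
    have h2 : (ν * k * (1 - ν) - k * ν) * (1 + ν) = 0 := by rw [h, zero_mul]
    have e2 : (ν * k * (1 - ν) - k * ν) * (1 + ν) =
        ν * k - k * ν - ν * k * (ν * ν) - k * (ν * ν) := by noncomm_ring
    rw [e2, hs, mul_zero, mul_zero, sub_zero, sub_zero] at h2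
    exact sub_eq_zero.1 h2

theorem Fb.cent (f : Fb L e k) {ν : Mt n F} (hr : ν.rank = 1) (hs : ν * ν = 0) (h1 : e * ν = ν)
    (hD : (1 + ν) * k * (1 - ν) ∈ L) {y : Mt n F} (hy1 : e * y = y) (hy2 : y * e = y)
    (hyk : y * k = k * y) : ∃ α β : F, y = α • e + β • k := by
  obtain ⟨b', hb, -⟩ := f.dinv hr hs h1 hD
  obtain ⟨v, ⟨y0, hy0⟩, hv⟩ := line_of_rank hr.le
  have hev : e *ᵥ v = v := by rw [← hy0, mulVec_mulVec, h1]
  have hsp : ∀ w, ∃ α β : F, e *ᵥ w = α • v + β • k *ᵥ v := by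
    intro w
    obtain ⟨c1, hc1⟩ := hv ((k * (1 - ν)) *ᵥ (b' *ᵥ w))
    obtain ⟨c2, hc2⟩ := hv (b' *ᵥ w)
    refine ⟨c1, -c2, ?_⟩
    rw [← hb, ← mulVec_mulVec, sub_mulVec, mul_assoc, ← mulVec_mulVec, hc1, ← mulVec_mulVec, hc2,
      mulVec_smul, neg_smul, sub_eq_add_neg]
  obtain ⟨α, β, h⟩ := hsp (y *ᵥ v)
  rw [mulVec_mulVec, hy1] at h
  refine ⟨α, β, ext_mv fun w => ?_⟩
  have ke : k * e = k := by rw [f.comm k f.hk e f.he, f.ek]
  have h2 : (α • e + β • k) *ᵥ v = y *ᵥ v := by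
    rw [add_mulVec, smul_mulVec, smul_mulVec, hev, h]
  have h3 : (α • e + β • k) *ᵥ (k *ᵥ v) = y *ᵥ (k *ᵥ v) := by
    rw [mulVec_mulVec, mulVec_mulVec, hyk, ← mulVec_mulVec (M := k) (N := y), ← h2, mulVec_mulVec]
    congr 1
    rw [add_mul, mul_add, smul_mul_assoc, smul_mul_assoc, mul_smul_comm, mul_smul_comm, f.ek, ke]
  have h4 : (α • e + β • k) * e = α • e + β • k := by
    rw [add_mul, smul_mul_assoc, smul_mul_assoc, f.ee, ke]
  obtain ⟨a, b, hab⟩ := hsp w
  rw [← hy2, ← h4, ← mulVec_mulVec, ← mulVec_mulVec, hab, mulVec_add, mulVec_add, mulVec_smul,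
    mulVec_smul, mulVec_smul, mulVec_smul, h2, h3]

theorem Fb.no3 (f : Fb L e k) {ν : Mt n F} (hr : ν.rank = 1) (hs : ν * ν = 0) (h1 : e * ν = ν)
    (h1' : ν * e = ν) (hD : (1 + ν) * k * (1 - ν) ∈ L) {c : F} (c0 : c ≠ 0) (c1 : c ≠ 1)
    (hD' : (1 + c • ν) * k * (1 - c • ν) ∈ L) : False := by
  have e1 : (c - c * c) • (ν * k * ν) =
      ((1 + c • ν) * k * (1 - c • ν) - k) - c • ((1 + ν) * k * (1 - ν) - k) := by
    simp only [add_mul, mul_sub, one_mul, mul_one, smul_mul_assoc, mul_smul_comm]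
    module
  have hcc : c - c * c ≠ 0 := by
    have : c - c * c = c * (1 - c) := by ring
    rw [this]
    exact mul_ne_zero c0 (sub_ne_zero.2 c1.symm)
  have hN : ν * k * ν ∈ L := by
    rw [← L.smul_mem_iff hcc, e1]
    exact L.sub_mem (L.sub_mem hD' f.hk) (L.smul_mem _ (L.sub_mem hD f.hk))
  have hN0 : ν * k * ν = 0 := by
    by_contra h0
    obtain ⟨b', hb, -⟩ := f.inv hN (by rw [← mul_assoc, ← mul_assoc, h1]) h0
    apply h0
    have : ν = 0 := by
      rw [← h1', ← hb, ← mul_assoc, ← mul_assoc, ← mul_assoc, hs]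
      simp
    rw [this]; simp
  obtain ⟨b', -, hb⟩ := f.dinv hr hs h1 hD
  have h2 : (ν * k * (1 - ν) - k * ν) * ν = 0 := by
    have : (ν * k * (1 - ν) - k * ν) * ν = ν * k * ν - ν * k * (ν * ν) - k * (ν * ν) := by
      noncomm_ring
    rw [this, hN0, hs]; simp
  have h3 : ν = 0 := by rw [← h1, ← hb, mul_assoc, h2, mul_zero]
  rw [h3, Matrix.rank_zero] at hr
  omega

theorem span_mul {A : Subgroup (Gl n F)} {x y : Mt n F} (hx : x ∈ spanG A) (hy : y ∈ spanG A) :
    x * y ∈ spanG A := by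
  induction hx using Submodule.span_induction with
  | mem a ha =>
    obtain ⟨a, ha, rfl⟩ := ha
    induction hy using Submodule.span_induction with
    | mem b hb =>
      obtain ⟨b, hb, rfl⟩ := hb
      exact Submodule.subset_span ⟨a * b, A.mul_mem ha hb, rfl⟩
    | zero => simp
    | add b b' _ _ h1 h2 => rw [mul_add]; exact Submodule.add_mem _ h1 h2
    | smul c b _ h1 => rw [mul_smul_comm]; exact Submodule.smul_mem _ _ h1
  | zero => simp
  | add a a' _ _ h1 h2 => rw [add_mul]; exact Submodule.add_mem _ h1 h2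
  | smul c a _ h1 => rw [smul_mul_assoc]; exact Submodule.smul_mem _ _ h1

theorem span_comm {A : Subgroup (Gl n F)} {x y : Mt n F} (hx : ∀ a ∈ A, Commute x (a : Mt n F))
    (hy : y ∈ spanG A) : Commute x y := by
  induction hy using Submodule.span_induction with
  | mem b hb =>
    obtain ⟨b, hb, rfl⟩ := hb
    exact hx b hb
  | zero => simp
  | add b b' _ _ h1 h2 => exact h1.add_right h2
  | smul c b _ h1 => exact h1.smul_right c

theorem kf (hKA : KAStmt) (hKT : KTStmt) (hKV : KVStmt) (hKW : KWStmt) (hC : CentStmt) :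
    KfStmt := by
  intro F _ _ _ n c r H Q hL A E hA hinv hab hP hB e he
  have ka := hKA F n c
  have kt := hKT F n c
  have kv := hKV F n c
  have kw := hKW F n c
  have ee := hP.fam.idem e he
  have hmem : ∀ x ∈ A, (x : Mt n F) ∈ spanG A := fun x hx => Submodule.subset_span ⟨x, hx, rfl⟩
  have hcomm : ∀ x ∈ spanG A, ∀ y ∈ spanG A, x * y = y * x := fun x hx y hy =>
    span_comm (fun a ha => (span_comm (fun b hb => (hab a ha b hb).map
      (Units.coeHom (Mt n F))) hx).symm) hy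
  by_cases h0 : ∀ x ∈ A, ∃ a : F, e * (x : Mt n F) = a • e
  · left
    intro b hb
    induction hb using Submodule.span_induction with
    | mem x hx =>
      obtain ⟨x, hx, rfl⟩ := hx
      exact h0 x hx
    | zero => exact ⟨0, by simp⟩
    | add b b' _ _ h1 h2 =>
      obtain ⟨a, ha⟩ := h1
      obtain ⟨a', ha'⟩ := h2
      exact ⟨a + a', by rw [mul_add, ha, ha', add_smul]⟩
    | smul d b _ h1 =>
      obtain ⟨a, ha⟩ := h1
      exact ⟨d * a, by rw [mul_smul_comm, ha, smul_smul]⟩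
  right
  push Not at h0
  obtain ⟨x, hx, hns⟩ := h0
  obtain ⟨k, hk⟩ : ∃ k, k = e * (x : Mt n F) := ⟨_, rfl⟩
  have f : Fb (spanG A) e k :=
    { comm := hcomm, he := hP.mem e he, hk := hk ▸ span_mul (hP.mem e he) (hmem x hx), ee := ee
      e0 := hP.fam.ne0 e he, ek := by rw [hk, ← mul_assoc, ee], fld := hP.fld e he
      ns := hk ▸ hns }
  obtain ⟨t, ht, -, htu, hr, h1, h1'⟩ := kw.btv e (fun hu => hB.sf hu e he) ee f.two_le
  obtain ⟨ν, hν⟩ : ∃ ν, ν = (t : Mt n F) - 1 := ⟨_, rfl⟩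
  rw [← hν] at hr h1 h1'
  have hnil : IsNilpotent ν := hν ▸ htu
  have hs := sq_zero hr hnil
  have htν : (t : Mt n F) = 1 + ν := by rw [hν]; abel
  have hst : c.u = true → c.st ν = -ν := by
    intro hu
    have h2 := (ka.mem_St t).1 ((ka.mem_S t).1 ht).1 hu
    rw [htν, ka.st_add hu, ka.st_one] at h2
    have h3 : (1 + c.st ν) * (1 + ν) * (1 - ν) = 1 - ν := by rw [h2, one_mul]
    have h4 : (1 + c.st ν) * (1 + ν) * (1 - ν) = (1 + c.st ν) * (1 - ν * ν) := by noncomm_ring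
    rw [h4, hs, sub_zero, mul_one, sub_eq_add_neg] at h3
    exact add_left_cancel h3
  have hnsc : ∃ y ∈ (E : Set (Mt n F)), ¬ Scal y := by
    refine ⟨e, he, ?_⟩
    rintro ⟨a, ha⟩
    obtain ⟨g, hg, hge⟩ := Finset.exists_mem_ne (lt_of_lt_of_le one_lt_two hB.two) e
    have h2 := hB.fam.orth e he g hg hge.symm
    rw [ha, smul_mul_assoc, one_mul] at h2
    rcases smul_eq_zero.1 h2 with h | h
    · exact f.e0 (by rw [ha, h, zero_smul])
    · exact hB.fam.ne0 g hg h
  have hcj : ∀ d : F, (c.u = true → d ^ c.q = d) → (1 + d • ν) * k * (1 - d • ν) ∈ spanG A := by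
    intro d hd
    obtain ⟨g, hg, hdet, -⟩ := kv.nil (d • ν) (hnil.smul d)
    have hmul : (1 + d • ν) * (1 - d • ν) = 1 := by
      have : ∀ z : Mt n F, (1 + z) * (1 - z) = 1 - z * z := fun z => by noncomm_ring
      rw [this, smul_mul_assoc, mul_smul_comm, hs]; simp
    have hmul' : (1 - d • ν) * (1 + d • ν) = 1 := by
      have : ∀ z : Mt n F, (1 - z) * (1 + z) = 1 - z * z := fun z => by noncomm_ring
      rw [this, smul_mul_assoc, mul_smul_comm, hs]; simp
    have hgS : g ∈ c.S := (ka.mem_S g).2 ⟨(ka.mem_St g).2 fun hu => by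
      rw [hg, ka.st_add hu, ka.st_one, ka.st_smul, hd hu, hst hu, smul_neg, ← sub_eq_add_neg,
        hmul'], hdet⟩
    have hgH : g ∈ c.hat H := (hC F n c r H Q hL E hB.inv hnsc).1 g hgS (by
      intro y hy
      rw [hg]
      refine (Commute.one_left y).add_left (Commute.smul_left ?_ d)
      by_cases hye : y = e
      · rw [hye]; exact h1'.trans h1.symm
      · have a1 : ν * y = 0 := by
          rw [← h1', mul_assoc, hB.fam.orth e he y hy (Ne.symm hye), mul_zero]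
        have a2 : y * ν = 0 := by
          rw [← h1, ← mul_assoc, hB.fam.orth y hy e he hye, zero_mul]
        exact a1.trans a2.symm)
    have h5 := kt.hatM H _ (kt.span H A hinv) g hgH k f.hk
    have h6 : ((g⁻¹ : Gl n F) : Mt n F) = 1 - d • ν :=
      Units.inv_eq_of_mul_eq_one_right (by rw [hg, hmul])
    rw [cj, h6, hg] at h5
    exact h5
  have hD : (1 + ν) * k * (1 - ν) ∈ spanG A := by
    have := hcj 1 (fun _ => one_pow _)
    rwa [one_smul] at this
  have ke : k * e = k := by rw [hcomm k f.hk e f.he, f.ek]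
  have hq : c.q = 2 := by
    by_contra hq
    have hq3 : 2 < c.q := lt_of_le_of_ne ka.two_le (Ne.symm hq)
    cases hu : c.u with
    | false =>
      have hc := c.hq
      rw [hu] at hc
      obtain ⟨d, d0, d1⟩ := ex3 F (by rw [Nat.card_eq_fintype_card, hc]; simpa using hq3)
      exact f.no3 hr hs h1 h1' hD d0 d1 (hcj d fun h => by rw [hu] at h; cases h)
    | true =>
      obtain ⟨F0, hF0, hm⟩ := ka.fx hu
      obtain ⟨d, d0, d1⟩ := ex3 F0 (by rw [hF0]; exact hq3)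
      exact f.no3 hr hs h1 h1' hD (c := d.1) (fun h => d0 (Subtype.ext h))
        (fun h => d1 (Subtype.ext h)) (hcj d.1 fun _ => (hm _).1 d.2)
  cases hu : c.u with
  | false =>
    refine ⟨rfl, hq, fun y hy hya => ?_⟩
    obtain ⟨α, β, h⟩ := f.cent hr hs h1 hD (y := y)
      (by rw [← hy, ← mul_assoc, ← mul_assoc, ee]) (by rw [← hy, mul_assoc _ e e, ee])
      (span_comm hya f.hk)
    rw [h]
    exact Submodule.add_mem _ (Submodule.smul_mem _ _ f.he) (Submodule.smul_mem _ _ f.hk)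
  | true =>
    exfalso
    obtain ⟨α, β, h⟩ := f.cent hr hs h1 hD (y := k * k) (by rw [← mul_assoc, f.ek])
      (by rw [mul_assoc, ke]) (mul_assoc _ _ _)
    have hse : c.st e = e := hB.sf hu e he
    have hxx := (ka.mem_St x).1 (hA hx) hu
    have hkk : c.st k * k = e := by
      have hxe : (x : Mt n F) * e = e * x := hcomm _ (hmem x hx) _ f.he
      rw [hk, ka.st_mul hu, hse, mul_assoc, ← mul_assoc e e, ee, ← hxe, ← mul_assoc, hxx, one_mul]
    have h2 : c.st (k * k) * k * k = c.st (α • e + β • k) * k * k := by rw [← h]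
    rw [ka.st_mul hu, ka.st_add hu, ka.st_smul, ka.st_smul, hse, mul_assoc (c.st k) _ k, hkk,
      mul_assoc, f.ek, hkk, add_mul, add_mul, smul_mul_assoc, smul_mul_assoc, smul_mul_assoc,
      smul_mul_assoc, f.ek, hkk, f.ek, h, hq] at h2
    have h3 : (α ^ 2 * β + β ^ 2) • k = (1 - α ^ 2 * α) • e := by
      rw [sub_smul, one_smul, add_smul]
      nth_rewrite 1 [h2]
      module
    have h4 : α ^ 2 * β + β ^ 2 = 0 := by
      by_contra h4
      apply f.ns ((α ^ 2 * β + β ^ 2)⁻¹ * (1 - α ^ 2 * α))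
      rw [mul_smul, ← h3, smul_smul, inv_mul_cancel₀ h4, one_smul]
    have h5 : 1 - α ^ 2 * α = 0 := by
      rw [h4, zero_smul] at h3
      exact (smul_eq_zero.1 h3.symm).resolve_right f.e0
    have h2z : (2 : F) = 0 := by
      have := ka.fr_fr hu (-1)
      rw [hq] at this
      linear_combination this
    obtain ⟨θ, hθ⟩ := ka.th hu
    rw [hq] at hθ
    have hroot : ∃ l : F, l * l = α + β * l := by
      by_cases hβ : β = 0
      · exact ⟨α ^ 2, by rw [hβ]; linear_combination (-α) * h5⟩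
      · have h6 : α ^ 2 + β = 0 := by
          apply mul_right_cancel₀ hβ
          linear_combination h4
        refine ⟨β * θ, ?_⟩
        have h7 : β = -α ^ 2 := by linear_combination h6
        rw [h7]
        linear_combination α ^ 4 * hθ - α * h5 - α ^ 4 * θ * h2z
    obtain ⟨l, hl⟩ := hroot
    have h8 : (k - l • e) * (k - (β - l) • e) = 0 := by
      have hα : α = l * l - β * l := by linear_combination -hl
      simp only [mul_sub, sub_mul, smul_mul_assoc, mul_smul_comm, ke, f.ek, ee]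
      rw [h, hα]
      module
    obtain ⟨b', -, hb⟩ := f.inv (b := k - l • e)
      (Submodule.sub_mem _ f.hk (Submodule.smul_mem _ _ f.he))
      (by rw [mul_sub, f.ek, mul_smul_comm, ee]) (sub_ne_zero.2 (f.ns l))
    apply f.ns (β - l)
    have h9 : e * (k - (β - l) • e) = 0 := by
      nth_rewrite 1 [← hb]
      rw [mul_assoc, h8, mul_zero]
    rw [mul_sub, f.ek, mul_smul_comm, ee] at h9
    exact sub_eq_zero.1 h9

end Cfsg.Agent.H59.SwKf
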