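import Mathlib
import Cfsg.Agent.H59.SzX
import Cfsg.Agent.H59.SzH
import Cfsg.Agent.H59.Tr
import Cfsg.Agent.H45.FiGrp2

/-!
# The Suzuki group: normalisers of Sylow `7`- and `5`-subgroups
-/

set_option autoImplicit false
set_option maxRecDepth 200000
set_option linter.style.longLine false

namespace Cfsg.Agent.H59

open Cfsg Cfsg.Agent.H44 Equiv Subgroup
open Cfsg.Agent.H43 hiding allL allL_iff anyL anyL_iff

section

variable {G : Type*} [Group G]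

theorem exists_sylow_eq [Finite G] {p n : ℕ} [Fact p.Prime] {P : Subgroup G}
    (h : Nat.card P = p ^ n) (h2 : ¬ p ^ (n + 1) ∣ Nat.card G) :
    ∃ S : Sylow p G, (S : Subgroup G) = P :=
  ⟨(IsPGroup.of_card h).toSylow fun h3 => h2 (by
    rw [← card_mul_index P, h, pow_succ]; exact mul_dvd_mul_left _ h3), rfl⟩

theorem exists_zpowers_eq {p : ℕ} [hp : Fact p.Prime] {C : Subgroup G} (h : Nat.card C = p) :
    ∃ u, orderOf u = p ∧ C = zpowers u := by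
  have : Finite C := Nat.finite_of_card_ne_zero (h ▸ hp.out.ne_zero)
  obtain ⟨x, hx⟩ := exists_prime_orderOf_dvd_card' (G := C) p h.symm.dvd
  rw [← orderOf_coe] at hx
  exact ⟨x, hx, (eq_of_le_of_card_ge (zpowers_le.2 x.2) (by rw [Nat.card_zpowers, hx, h])).symm⟩

theorem Eqs.norm [Finite G] {g : ℕ → G} {L : List (List ℕ × List ℕ)} (h : Eqs g L)
    {S : List (List ℕ)} (N : List (List ℕ)) (k : ℕ)
    (hk : S.all (fun q => N.any fun w => L.contains (k :: q, w ++ [k]) &&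
      w.all fun x => S.contains [x]) = true) : g k ∈ normalizer (wgen g S : Set G) :=
  H49.mem_normalizer_of_conj_mem fun _ hy =>
    (wgen_le (K := (wgen g S).comap (MulAut.conj (g k)).toMonoidHom)).2 (fun q hq => by
      obtain ⟨w, -, e⟩ := List.any_eq_true.1 (List.all_eq_true.1 hk q hq)
      rw [Bool.and_eq_true] at e
      rw [mem_comap, MulEquiv.coe_toMonoidHom, MulAut.conj_apply, ← ev_cons, h.get _ _ e.1,
        ev_append, ev_single, mul_inv_cancel_right]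
      exact ev_mem_wgen g e.2) hy

theorem Eqs.comm {g : ℕ → G} {L : List (List ℕ × List ℕ)} (h : Eqs g L) {S : List (List ℕ)}
    (hS : S.all (fun s => S.all fun t => s == t || L.contains (s ++ t, t ++ s) ||
      L.contains (t ++ s, s ++ t)) = true) {x y : G} (hx : x ∈ wgen g S) (hy : y ∈ wgen g S) :
    x * y = y * x :=
  wgen_comm (fun s hs t ht => by
    have := List.all_eq_true.1 (List.all_eq_true.1 hS s hs) t ht
    simp only [Bool.or_eq_true, beq_iff_eq] at this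
    rcases this with (rfl | e) | e
    · rfl
    · rw [← ev_append, h.get _ _ e, ev_append]
    · rw [← ev_append, ← h.get _ _ e, ev_append]) hx hy

theorem wgen_pow {g : ℕ → G} {S : List (List ℕ)} {p : ℕ}
    (hc : ∀ x ∈ wgen g S, ∀ y ∈ wgen g S, x * y = y * x) (hp : ∀ s ∈ S, ev g s ^ p = 1) :
    ∀ x ∈ wgen g S, x ^ p = 1 := fun x hx => by
  induction hx using closure_induction with
  | mem y hy => obtain ⟨s, hs, rfl⟩ := hy; exact hp s hs
  | one => exact one_pow p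
  | mul a b ha hb h1 h2 => rw [Commute.mul_pow (hc a ha b hb), h1, h2, one_mul]
  | inv a _ h1 => rw [inv_pow, h1, inv_one]

theorem le_card_gen [Finite G] (m : ℕ → G) (nc : ℕ) (W : List (List ℕ))
    (h1 : (W.map (ev m)).Nodup) (h2 : W.all (lettersIn nc) = true) :
    W.length ≤ Nat.card (gen m nc) := by
  rw [← List.length_map (ev m)]
  refine length_le_card h1 fun x hx => ?_
  obtain ⟨w, hw, rfl⟩ := List.mem_map.1 hx
  have := lettersIn_iff.1 (List.all_eq_true.1 h2 w hw)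
  exact ev_mem fun i hi => mem_gen m (this i hi).1 (this i hi).2

end

namespace Sz

theorem satX (σ : ℕ → List ℕ) (R : List (List ℕ))
    (h : DX.eqsB (R.map fun r => (r.flatMap σ, [])) = true) : Sat (fun x => ev β (σ x)) R :=
  fun r hr => by rw [← ev_flatMap]; exact okX.eqs h _ (List.mem_map_of_mem hr)

theorem ord7 : orderOf (β 10) = 7 := by rw [← orderOf_coe, val 10]; exact SzT.st_c17_ord
theorem cent7 : Nat.card (centralizer {β 10}) = 84 := by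
  rw [cent_val, val 10]; exact SzT.st_c17_card

/-- Generators of `7 × A₄` in the Suzuki group. -/
noncomputable def σ7 : ℕ → List ℕ := nth [] [[], [10], [10, 10, 10, 10, 10, 10], [5], [8], [9]]

/-- Generators of `7 × A₄`. -/
noncomputable def m7 : ℕ → Multiplicative (ZMod 7) × alternatingGroup (Fin 4) := nth 1
  [1, (Multiplicative.ofAdd 1, 1), (Multiplicative.ofAdd 6, 1),
    (1, ⟨swap 0 1 * swap 2 3, Perm.mem_alternatingGroup.2 (by decide)⟩),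
    (1, ⟨swap 0 1 * swap 1 2, Perm.mem_alternatingGroup.2 (by decide)⟩),
    (1, ⟨swap 1 2 * swap 0 1, Perm.mem_alternatingGroup.2 (by decide)⟩)]

theorem sat_m7 : Sat m7 SzH.za.R := show ∀ r ∈ SzH.za.R, ev m7 r = 1 by decide +kernel

theorem card_m7 : 84 ≤ Nat.card (gen m7 5) :=
  le_card_gen m7 5 [[3, 4, 4, 1, 1, 1, 1, 1], [4, 3, 4, 1, 1, 1, 1, 1, 1], [4, 4], [4, 3, 1, 1, 1, 1, 1], [3, 4, 3], [4, 3, 4, 1, 1, 1, 1, 1], [4, 1, 1, 1, 1, 1], [4, 4, 3, 4, 1, 1, 1, 1, 1], [4, 3, 4, 4, 1, 1, 1, 1, 1], [4, 4, 3, 1, 1, 1, 1, 1, 1], [1, 1, 1, 1, 1], [4, 3], [4, 4, 3, 1, 1, 1, 1, 1], [4, 3, 4, 4], [4, 4, 3, 4], [3, 4, 4], [3, 1, 1, 1, 1, 1], [3, 4, 3, 1, 1, 1, 1, 1], [4, 4, 1, 1, 1, 1, 1], [3, 4, 1, 1, 1, 1, 1], [3, 4, 3, 1, 1, 1, 1, 1, 1], [3, 1, 1, 1, 1, 1, 1], [1, 1, 1, 1], [4, 4, 3, 4, 1], [4, 4, 3], [], [4, 4, 3, 4, 1, 1, 1, 1, 1, 1], [4, 4, 3, 1], [3, 4, 3, 1], [4, 1, 1, 1, 1, 1, 1], [4, 3, 1,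 1, 1, 1], [3, 4, 4, 1, 1, 1, 1], [3, 4], [4, 3, 1, 1, 1, 1, 1, 1], [4, 3, 4, 4, 1, 1, 1, 1, 1, 1], [3], [1, 1, 1, 1, 1, 1], [4], [4, 3, 4, 4, 1], [4, 3, 1], [3, 4, 3, 1, 1, 1, 1], [4, 3, 4, 1], [3, 1, 1, 1, 1], [4, 4, 1, 1, 1, 1], [3, 4, 1, 1, 1, 1, 1, 1], [4, 3, 4], [4, 4, 1, 1, 1, 1, 1, 1], [3, 4, 3, 1, 1], [3, 4, 4, 1, 1], [4, 4, 3, 1, 1, 1, 1], [3, 1, 1], [4, 4, 1, 1], [4, 1, 1, 1], [3, 4, 4, 1, 1, 1], [4, 4, 3, 4, 1, 1], [4, 4, 3, 1, 1], [1, 1], [4, 4, 3, 4, 1, 1, 1], [4, 1, 1], [4, 3, 4, 4, 1, 1, 1], [3, 4, 1, 1], [3, 4, 1, 1, 1, 1], [4, 3, 1, 1, 1], [4, 3, 4, 1, 1, 1], [4, 4, 1], [1], [3, 4, 4, 1], [3, 4, 3, 1, 1, 1], [4, 4, 3, 4, 1, 1, 1, 1], [4, 3, 4, 1, 1], [4, 3, 4, 4, 1, 1], [4, 1, 1, 1, 1], [4, 3, 4, 4, 1, 1, 1, 1], [1, 1, 1], [3, 1, 1, 1], [3, 4, 4, 1, 1, 1, 1, 1, 1], [3, 4, 1], [4, 3, 1, 1], [4, 4, 3, 1, 1, 1], [4, 4, 1, 1, 1], [3, 4, 1, 1, 1], [3, 1], [4, 1], [4, 3, 4, 1, 1,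 1, 1]] (by decide +kernel) (by decide +kernel)

theorem loc7 [Fact (Nat.Prime 7)] : ∃ S : Sylow 7 Γ,
    Nonempty (centralizer ((S : Subgroup Γ) : Set Γ) ≃*
      Multiplicative (ZMod 7) × alternatingGroup (Fin 4)) ∧
    Nat.card (normalizer ((S : Subgroup Γ) : Set Γ)) = 504 := by
  have h7 : Nat.card (zpowers (β 10)) = 7 := by rw [Nat.card_zpowers, ord7]
  obtain ⟨S, hS⟩ := exists_sylow_eq (p := 7) (n := 1) h7 (by rw [card_Γ]; norm_num)
  refine ⟨S, ?_, ?_⟩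
  · have h4 : 84 ≤ Nat.card (gen (fun x => ev β (σ7 x)) 5) :=
      (okX.le_card (W := [[5, 8, 8, 10, 10, 10, 10, 10], [8, 5, 8, 10, 10, 10, 10, 10, 10], [8, 8], [8, 5, 10, 10, 10, 10, 10], [5, 8, 5], [8, 5, 8, 10, 10, 10, 10, 10], [8, 10, 10, 10, 10, 10], [8, 8, 5, 8, 10, 10, 10, 10, 10], [8, 5, 8, 8, 10, 10, 10, 10, 10], [8, 8, 5, 10, 10, 10, 10, 10, 10], [10, 10, 10, 10, 10], [8, 5], [8, 8, 5, 10, 10, 10, 10, 10], [8, 5, 8, 8], [8, 8, 5, 8], [5, 8, 8], [5, 10, 10, 10, 10, 10], [5, 8, 5, 10, 10, 10, 10, 10], [8, 8, 10, 10, 10, 10, 10], [5, 8, 10, 10, 10, 10, 10], [5, 8, 5, 10, 10, 10, 10, 10, 10], [5, 10, 10, 10, 10, 10, 10], [10, 10, 10, 10], [8, 8, 5, 8, 10], [8, 8, 5], [], [8, 8, 5, 8, 10, 10, 10, 10, 10, 10], [8, 8, 5, 10], [5, 8, 5, 10], [8, 10, 10, 10, 10, 10, 10], [8, 5, 10, 10, 10, 10], [5, 8, 8, 10, 10, 10, 10], [5, 8], [8, 5, 10, 10, 10, 10, 10, 10], [8, 5, 8, 8, 10, 10, 10, 10,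 10, 10], [5], [10, 10, 10, 10, 10, 10], [8], [8, 5, 8, 8, 10], [8, 5, 10], [5, 8, 5, 10, 10, 10, 10], [8, 5, 8, 10], [5, 10, 10, 10, 10], [8, 8, 10, 10, 10, 10], [5, 8, 10, 10, 10, 10, 10, 10], [8, 5, 8], [8, 8, 10, 10, 10, 10, 10, 10], [5, 8, 5, 10, 10], [5, 8, 8, 10, 10], [8, 8, 5, 10, 10, 10, 10], [5, 10, 10], [8, 8, 10, 10], [8, 10, 10, 10], [5, 8, 8, 10, 10, 10], [8, 8, 5, 8, 10, 10], [8, 8, 5, 10, 10], [10, 10], [8, 8, 5, 8, 10, 10, 10], [8, 10, 10], [8, 5, 8, 8, 10, 10, 10], [5, 8, 10, 10], [5, 8, 10, 10, 10, 10], [8, 5, 10, 10, 10], [8, 5, 8, 10, 10, 10], [8, 8, 10], [10], [5, 8, 8, 10], [5, 8, 5, 10, 10, 10], [8, 8, 5, 8, 10, 10, 10, 10], [8, 5, 8, 10, 10], [8, 5, 8, 8, 10, 10], [8, 10, 10, 10, 10], [8, 5, 8, 8, 10, 10, 10, 10], [10, 10, 10], [5, 10, 10, 10], [5, 8, 8, 10, 10, 10, 10, 10, 10], [5, 8, 10], [8, 5, 10, 10], [8, 8, 5, 10, 10, 10], [8, 8, 10, 10, 10], [5, 8, 10, 10, 10],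 [5, 10], [8, 10], [8, 5, 8, 10, 10, 10, 10]]) (S := [[10], [5], [8]]) (by decide +kernel)
        (by decide +kernel)).trans (card_le_of_le (wgen_le.2 (by
          simp only [List.forall_mem_cons]
          exact ⟨mem_gen _ (x := 1) (by decide) (by decide), mem_gen _ (x := 3) (by decide) (by decide),
            mem_gen _ (x := 4) (by decide) (by decide), by simp⟩)))
    obtain ⟨e⟩ := equiv_of_pres (fun x => ev β (σ7 x)) m7 5 (N := 84 * 1)
      ((SzH.za.checked.idxLe (Sat.prod (satX σ7 _ (by decide +kernel)) sat_m7) (H := ⊥)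
        (by simp [SzH.za.S])).card_le bot_le ⟨inferInstance, card_bot.le⟩) card_m7
      (by rw [Nat.card_prod, nat_card_alternatingGroup]; simp [Nat.factorial]) h4
    have h5 : gen (fun x => ev β (σ7 x)) 5 = centralizer {β 10} := by
      refine eq_of_le_of_card_ge (gen_le.2 fun x h1 h2 => mem_centralizer_singleton_iff.2 ?_)
        (cent7 ▸ h4)
      have k : DX.eqW (σ7 x ++ [10]) (10 :: σ7 x) = true := by
        interval_cases x <;> decide +kernel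
      simpa only [ev_append, ev_cons, ev_nil, mul_one] using okX.eq k
    rw [hS, cent_zpowers, ← h5]
    exact ⟨e⟩
  · obtain ⟨k, i, h1, h2, h3, h4⟩ := card_norm_sylow S
    rw [H58.card_mulAut_of_prime_card (hS ▸ h7 : Nat.card S = 7)] at h1
    rw [h3, card_Γ] at h4
    rw [h3]
    rw [hS, cent_zpowers, cent7] at h4 ⊢
    have := Nat.le_of_dvd (by norm_num) h1
    interval_cases k <;> omega

theorem ord5a : orderOf (β 11) = 5 := by rw [← orderOf_coe, val 11]; exact SzT.st_c10_ord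
theorem ord5b : orderOf (β 12) = 5 := by rw [← orderOf_coe, val 12]; exact SzT.st_c11_ord
theorem cent5a : Nat.card (centralizer {β 11}) = 1800 := by
  rw [cent_val, val 11]; exact SzT.st_c10_card
theorem cent5b : Nat.card (centralizer {β 12}) = 300 := by
  rw [cent_val, val 12]; exact SzT.st_c11_card

theorem cls5 (u : Γ) (hu : orderOf u = 5) : IsConj (β 11) u ∨ IsConj (β 12) u := by
  obtain ⟨i, h1, h2, h3, -⟩ := tab u
  have k : ∀ i < 43, 5 = nthN SzT.st_os i → i = 10 ∨ i = 11 := by decide +kernel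
  rcases k i h1 (hu ▸ h3) with rfl | rfl
  exacts [Or.inl (h2 _ (val 11)), Or.inr (h2 _ (val 12))]

/-- A Sylow `5`-subgroup. -/
noncomputable abbrev P5 : Subgroup Γ := wgen β [[11], [12]]

theorem card_P5 : Nat.card P5 = 25 := by
  have e : wgen (gp 1782 SzO.EG SzO.code) [[11], [12]] = grp 1782 SzO.cp_O :=
    le_antisymm (wgen_le_grp [11, 12] rfl (by decide +kernel))
      (grp_le_wgen' [11, 12] rfl (by decide +kernel))
  exact (okX.card_wgen _).trans (e ▸ le_antisymm SzO.cp_card SzO.cp_ge)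

theorem comm_P5 : ∀ x ∈ P5, ∀ y ∈ P5, x * y = y * x := fun _ hx _ hy =>
  eqX.comm (by decide +kernel) hx hy

theorem cent_P5 : centralizer (P5 : Set Γ) = P5 :=
  le_antisymm (fun x hx => okX.cent (fun ξ => ξ.2) SzO.cp_sym SzO.cp_cnt SzO.cp_geE SzO.cp_le
    [11, 12] [11, 12] rfl (by decide +kernel) rfl (by decide +kernel) fun i hi =>
      (hx _ (ev_single β i ▸ mem_wgen β [i] (by revert i; decide))).symm)
    fun x hx y hy => comm_P5 y hy x hx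

theorem norm_P5 : ∀ k ∈ [11, 12, 13, 14, 15], β k ∈ normalizer (P5 : Set Γ) := by
  simp only [List.forall_mem_cons]
  exact ⟨le_normalizer (ev_single β 11 ▸ mem_wgen β [11] (by decide)),
    le_normalizer (ev_single β 12 ▸ mem_wgen β [12] (by decide)),
    eqX.norm [[11, 11, 11], [12, 12, 12]] 13 (by decide +kernel),
    eqX.norm [[12, 11, 11, 11], [12, 11, 11]] 14 (by decide +kernel),
    eqX.norm [[12, 12, 12, 12, 11], [12, 12, 12, 12]] 15 (by decide +kernel), by simp⟩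

/-- Generators of `4 × S₃` in the Suzuki group. -/
noncomputable def σ5 : ℕ → List ℕ := nth [] [[], [13], [13, 13, 13], [14], [14, 14], [15]]

/-- Generators of `4 × S₃`. -/
noncomputable def m5 : ℕ → Multiplicative (ZMod 4) × Perm (Fin 3) := nth 1
  [1, (Multiplicative.ofAdd 1, 1), (Multiplicative.ofAdd 3, 1),
    (1, swap 0 1 * swap 1 2), (1, swap 1 2 * swap 0 1), (1, swap 0 1)]

theorem loc5 [Fact (Nat.Prime 5)] : ∃ S : Sylow 5 Γ, Nat.card (S : Subgroup Γ) = 25 ∧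
    Nat.card (normalizer ((S : Subgroup Γ) : Set Γ)) = 600 ∧
    Nonempty (normalizer ((S : Subgroup Γ) : Set Γ) ⧸ (S : Subgroup Γ).subgroupOf
      (normalizer ((S : Subgroup Γ) : Set Γ)) ≃* Multiplicative (ZMod 4) × Perm (Fin 3)) := by
  obtain ⟨S, hS⟩ := exists_sylow_eq (p := 5) (n := 2) card_P5 (by rw [card_Γ]; norm_num)
  have h1 : wgen β [[11], [12], [13], [14], [15]] ≤ normalizer (P5 : Set Γ) :=
    wgen_le.2 fun s hs => ev_mem fun x hx => norm_P5 x (by revert x s; decide)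
  have h2 : 600 ≤ Nat.card (wgen β [[11], [12], [13], [14], [15]]) :=
    okX.le_card (W := [[15, 11], [11, 13, 13, 12], [14, 15, 13, 13, 12, 13, 11], [15, 14, 12, 11, 14], [13, 12, 14, 15, 13], [13, 11, 14, 14], [13, 13, 12, 14, 12], [14, 13, 12, 13, 13], [12, 11, 11, 11], [14, 15, 13, 11], [14, 11, 11, 15, 13, 13], [15, 12, 13, 13], [11, 14, 14, 13], [15, 13, 12, 13, 13], [14, 15, 11, 11], [15, 11, 14, 13, 13, 13], [14, 15, 13, 13, 13, 12], [12, 14, 11], [15, 11, 14, 13, 13, 12], [13, 11, 13, 12], [13, 13, 13, 12, 11], [14, 15, 11, 13, 13], [13, 11, 15, 14, 13, 13], [13, 12, 13, 13, 11], [14, 15, 13, 13], [13, 12, 14, 14], [14, 14, 11, 13, 13], [15, 12, 14, 12], [15, 13, 13, 11], [15, 12, 15], [13, 13, 13, 12, 14, 12], [15, 12, 14, 14, 12], [15, 11, 14, 14, 12], [15, 14, 13, 13, 13, 11], [12, 15, 14, 13, 13, 13, 11], [13, 12, 15, 14], [14, 14, 13, 13, 13], [13, 12, 11, 13, 13], [13, 12,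 15, 14, 13], [14, 13, 11, 14, 13, 13], [15, 13, 12, 11, 13], [11, 15, 14, 13, 13], [15, 14, 13, 12, 13], [14, 13, 12, 15, 13], [13, 12, 11, 13, 12], [13, 13, 13, 12, 14, 14], [14, 13], [12, 13, 13, 11, 13], [11, 11, 14, 14, 12], [13, 11, 15, 14, 13, 12], [14, 15, 13, 11, 13, 13], [14, 13, 13, 12, 14, 11], [14, 11, 13, 11, 15], [13, 13], [13, 13, 11, 15, 11, 11], [11, 15, 14, 11], [14, 13, 13, 13, 11, 15], [14, 14, 11, 11, 13], [13, 13, 12, 14, 14, 13], [14, 12, 11, 13, 13], [12, 12, 15], [14, 15, 12], [13, 13, 12, 14], [13], [12, 15, 14, 12], [15, 11, 13, 13, 13, 12], [15, 14, 11], [14, 12, 13, 11], [11, 11, 15, 14], [13, 13, 13, 11, 14, 11], [13, 11, 13, 12, 11], [15, 13, 13, 13, 12], [12, 14, 12, 13], [14, 15, 13, 13, 12, 13], [12, 15, 14, 13, 12], [14, 12, 12, 13], [11, 11, 14, 14], [13, 13, 12, 14, 15, 13], [13, 11, 13, 12, 13], [14, 11, 15, 13, 13, 12], [15, 13, 11, 13, 12], [15, 13,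 13, 12], [13, 12, 13, 11], [11, 11, 15, 13, 13], [15, 11, 13, 12], [12, 14, 15, 13, 13, 13], [14, 13, 11, 14], [15, 11, 15, 11, 11, 11], [15, 11, 13, 12, 11], [15], [15, 14, 13, 11, 13], [15, 12, 12], [13, 12, 14, 15, 13, 13], [12, 14, 14, 13, 13, 13], [15, 13, 13, 11, 13, 12], [14, 15, 12, 11], [14, 15, 12, 13], [14, 14, 12, 11, 14], [13, 12, 14, 15, 13, 13, 11], [13, 12, 15, 14, 11], [14, 12, 14, 13, 13, 11], [15, 13, 12, 11, 14], [13, 13, 13, 12, 14, 15], [15, 11, 15, 14], [12, 13, 13, 11], [14, 15, 13, 12, 13], [15, 13, 13, 13, 11], [13, 13, 13, 11], [13, 13, 11, 15, 14, 13], [15, 13, 11, 14, 11], [15, 14, 13, 12, 13, 13], [12, 11, 13, 12], [15, 12, 13, 11], [13, 13, 11, 15, 11], [12, 13, 12], [13, 12, 13, 11, 13], [14, 15, 12, 13, 13, 13], [15, 11, 14, 14], [12, 11, 11], [14, 13, 12, 15], [15, 13, 12, 14], [12, 14, 15, 13, 13, 12], [14, 12, 11, 13], [14, 12, 13, 12], [14, 14, 12, 13,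 13, 13], [12, 11, 15], [14, 15, 12, 13, 11], [14, 11, 13, 13, 13], [12], [15, 14, 11, 13], [15, 12, 11], [12, 14, 12, 14], [15, 14, 12, 11, 11], [15, 14, 13, 13, 12, 13], [11, 13, 12], [12, 14, 15, 13], [15, 11, 14, 14, 11], [14, 12, 15, 13], [12, 14, 14, 13], [14, 13, 13, 11, 14, 13], [12, 15, 13, 11], [11, 15, 11, 13], [15, 11, 15, 14, 11], [14, 12, 13, 13, 13, 11], [13, 12, 13, 12, 11], [13, 13, 11, 14, 11], [13, 13, 13, 12, 14, 15, 11], [13, 12, 15], [14, 15, 11, 13, 12], [12, 11, 11, 13, 12], [15, 13, 11, 13, 11], [15, 12, 13, 13, 13], [13, 12], [12, 14, 13, 13], [15, 14, 11, 13, 13, 13], [13, 12, 15, 13, 11], [15, 14, 12, 12], [14, 13, 11, 15, 13, 11], [14, 12, 14, 11, 11], [13, 12, 14, 15, 11], [14, 13, 13, 13], [15, 14, 13], [13, 12, 14], [15, 13, 11, 14, 13, 13], [12, 15, 13], [11, 11, 15], [15, 14, 11, 11, 11], [12, 14, 12], [14, 15, 11, 13, 11], [14, 12, 15], [14, 13, 11, 13], [15,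 14, 11, 11], [11, 13, 12, 13, 13], [13, 11, 15], [14, 14, 13, 13, 12, 13], [12, 14, 11, 14], [11, 15, 13], [15, 14, 13, 12, 13, 12], [14, 12, 15, 14], [14, 14, 12], [15, 12, 15, 14], [14, 14, 13, 12, 13, 13], [15, 14, 12, 13, 12], [14, 14, 13, 13, 12], [11, 13, 13, 12, 13], [13, 12, 14, 14, 13], [11, 14, 13, 13], [12, 13, 11, 13], [11, 14, 11, 14], [12, 12, 11, 13], [13, 13, 11, 13, 12], [14, 14, 13, 13, 11, 13], [11, 11], [15, 13, 11, 14, 13], [12, 11, 13, 13], [12, 14, 15, 13, 13, 11], [14, 11, 11, 15, 13], [14, 14, 12, 14], [11, 14, 13, 13, 13], [14, 15, 13], [12, 13, 11, 13, 11], [14, 14, 13, 11, 13, 13], [13, 13, 11, 14, 13], [14, 13, 13, 13, 12], [14, 15, 13, 12, 13, 13], [13, 11, 15, 14, 13, 13, 11], [15, 13, 11, 13, 13], [13, 11, 13, 13], [15, 13, 13, 12, 11, 13], [14, 13, 13, 12, 13, 11], [15, 12, 14, 13, 13, 13], [13, 13, 12, 14, 15], [12, 15, 14], [12, 15, 14, 13, 13, 13], [14,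 12, 13, 13], [11, 14, 14, 13, 11], [11, 11, 15, 13], [14, 14, 13, 13], [13, 11, 15, 13, 11], [14, 12, 14], [11, 14, 14, 13, 13], [13, 13, 11, 15], [12, 11], [14, 15, 13, 13, 12], [11, 11, 15, 11, 11], [15, 13, 11, 14], [13, 12, 11], [14, 11, 15, 13], [12, 15, 14, 11], [15, 11, 14, 13, 13, 13, 11], [14, 13, 12, 14, 13], [15, 13, 13, 12, 11], [12, 14, 14, 13, 13], [14, 12], [12, 15, 14, 13, 13], [13, 13, 13, 11, 14], [14, 13, 13, 11, 14], [15, 13, 11, 13], [13, 11, 14, 14, 12], [14, 12, 14, 11], [11, 15, 13, 13, 12, 13], [12, 15, 14, 13, 11], [11, 15, 11, 13, 13], [12, 14, 15], [14, 13, 13, 11, 15, 11], [14, 13, 11, 15, 11, 13], [13, 12, 15, 14, 13, 13], [14, 11, 11, 11], [14, 13, 13, 13, 11, 14], [12, 12, 11, 11, 13], [15, 14, 13, 13, 11], [12, 11, 13, 13, 13], [11, 15, 14, 13], [14, 15, 12, 11, 13], [14, 13, 13, 12], [14, 15], [13, 13, 11, 15, 13], [14, 12, 11, 11], [14, 14, 12, 11], [13,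 12, 14, 13, 13], [11, 14, 11], [15, 11, 11, 13], [11, 15, 11, 11], [12, 14, 15, 12], [15, 13], [13, 12, 14, 12], [11, 15], [11, 11, 13], [13, 12, 14, 15, 13, 13, 12], [13, 13, 12, 14, 14], [13, 12, 13], [15, 13, 13, 11, 14], [12, 14, 13, 13, 11], [11, 15, 11], [15, 13, 13, 11, 13], [14, 15, 13, 13, 13, 12, 11], [14, 13, 12, 13, 12], [11, 15, 14], [15, 11, 13, 13, 13], [14, 12, 14, 13, 13], [15, 14], [12, 14, 11, 15], [15, 12, 14], [14, 15, 12, 13, 13], [11, 15, 14, 13, 13, 13], [14, 12, 11], [15, 14, 12, 13, 13], [15, 12, 11, 11], [11, 15, 14, 13, 12], [13, 11, 14, 14, 13], [15, 11, 13, 13], [14, 11, 15, 11, 13], [15, 14, 13, 13, 12], [14, 15, 13, 13, 11, 13], [15, 14, 12, 13, 13, 13], [15, 11, 11, 11, 11], [15, 13, 13, 12, 13, 11], [14, 14, 13, 13, 13, 11], [15, 13, 13, 13, 12, 11], [12, 14, 11, 11, 11], [12, 14, 14, 12], [15, 13, 12, 14, 13, 11], [15, 12, 13, 13, 13, 11], [12, 14, 11, 13],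 [12, 14, 15, 13, 13, 13, 12], [14, 15, 12, 12], [13, 13, 11, 14], [], [12, 13, 12, 11], [14, 13, 11], [15, 13, 13, 12, 13], [15, 14, 13, 11], [12, 12, 12, 11], [13, 13, 12, 14, 13], [15, 11, 14, 13], [14, 14, 13, 12, 13], [13, 11, 15, 14, 13], [15, 14, 13, 13, 13, 12], [12, 13, 13], [15, 14, 12, 11], [15, 11, 11, 15], [13, 11, 15, 14], [11, 13, 11, 15], [14, 14, 11, 13], [11], [13, 13, 12, 11, 13], [14, 14, 11, 11], [11, 14, 13], [12, 14, 11, 11], [12, 13, 11], [13, 12, 11, 13, 12, 11], [15, 13, 12], [11, 14, 14, 12], [15, 12, 14, 13, 13], [13, 11, 15, 11, 11], [14], [14, 12, 12, 15], [13, 12, 14, 13], [12, 14, 15, 12, 11], [13, 13, 11, 15, 11, 13], [12, 11, 11, 11, 11], [13, 13, 12, 14, 15, 11], [11, 15, 11, 13, 12], [14, 14, 11, 13, 11], [14, 13, 11, 15], [14, 11, 11, 11, 11], [12, 14, 13], [14, 13, 11, 14, 11], [15, 11, 11], [11, 14, 14, 13, 12], [14, 13, 12, 14, 11], [12, 13], [15, 11,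 13, 11], [15, 14, 13, 12], [14, 11, 11, 14], [15, 11, 14], [12, 14, 13, 11], [14, 15, 11, 11, 13], [12, 15], [13, 13, 12, 14, 11], [14, 11, 14, 13, 13, 13], [11, 13, 13, 13, 12], [14, 11, 14, 13], [14, 11, 13], [14, 11, 15, 14, 11], [13, 13, 13, 12, 14, 11], [11, 15, 13, 13, 12], [13, 11, 15, 13, 13], [13, 13, 13, 12, 14], [14, 13, 13], [13, 12, 14, 11, 13], [14, 14, 13, 13, 11], [14, 13, 12, 14, 13, 13], [14, 13, 13, 12, 14, 13], [11, 15, 14, 13, 13, 11], [11, 15, 11, 11, 11], [12, 12, 12], [14, 13, 13, 11, 15], [13, 13, 12, 14, 13, 11], [15, 14, 13, 11, 13, 11], [14, 14, 12, 13], [13, 11, 13], [12, 14, 12, 11], [14, 13, 12, 13], [11, 11, 14, 13], [14, 12, 14, 13, 13, 13], [14, 13, 11, 15, 13], [11, 11, 14], [12, 14, 14, 13, 13, 11], [11, 14, 14, 13, 13, 13], [12, 12, 11, 11, 11], [15, 13, 12, 14, 13], [15, 14, 11, 13, 11], [12, 14, 14, 12, 13], [12, 12, 13, 11], [14, 14, 13, 12, 13, 12],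 [13, 11, 14, 14, 13, 13], [14, 13, 11, 15, 11], [11, 11, 11, 11], [14, 15, 12, 15], [12, 12, 13], [15, 14, 13, 13], [12, 12, 11], [15, 13, 12, 14, 13, 13], [13, 11, 14, 11], [12, 12], [14, 12, 14, 13], [11, 13, 13], [11, 15, 13, 11], [13, 13, 11, 15, 14], [12, 13, 12, 14], [14, 13, 13, 12, 13], [14, 12, 14, 12], [15, 13, 11], [13, 13, 12, 13], [15, 14, 12, 13], [11, 15, 11, 14], [14, 11], [11, 13, 12, 13, 12], [15, 11, 11, 11], [12, 12, 15, 14], [11, 14, 14, 11], [14, 11, 14, 11], [15, 12, 11, 13], [15, 14, 13, 13, 11, 13], [15, 12, 11, 14], [12, 13, 11, 13, 13], [12, 14, 11, 15, 13], [14, 11, 15], [14, 15, 11, 13], [13, 11, 14, 14, 11], [14, 11, 11, 15], [14, 15, 13, 13, 11], [12, 11, 13], [15, 11, 15, 11], [12, 12, 11, 11], [13, 12, 14, 12, 13], [12, 11, 11, 13], [11, 11, 11, 14], [11, 14, 13, 13, 13, 11], [14, 14, 12, 15], [14, 14, 12, 13, 13], [14, 14, 12, 12], [13, 13, 12], [14, 14, 12,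 14, 11], [15, 13, 13, 13], [13, 13, 12, 11], [15, 13, 13, 11, 14, 13], [14, 14, 13], [13, 12, 11, 13], [14, 15, 12, 12, 11], [13, 12, 14, 14, 13, 13], [11, 13, 11], [14, 14, 13, 11], [13, 13, 13, 11, 15, 11], [13, 13, 13, 11, 15], [15, 13, 12, 11], [13, 12, 14, 13, 11], [14, 14, 13, 11, 13], [11, 11, 11, 15], [13, 11, 14], [15, 13, 12, 14, 11], [14, 11, 15, 11], [11, 13, 13, 13], [11, 15, 13, 13, 13, 11], [14, 13, 12, 14, 12], [15, 14, 12, 13, 13, 13, 11], [12, 15, 14, 13], [15, 12, 14, 13], [12, 14, 13, 13, 13], [11, 13, 12, 11], [15, 12, 14, 13, 13, 11], [13, 11, 15, 14, 11], [14, 12, 12, 11], [14, 15, 13, 13, 12, 11], [13, 11, 13, 13, 12], [15, 14, 13, 13, 13], [14, 15, 11, 13, 13, 13], [13, 13, 13, 12], [12, 14, 14], [14, 11, 13, 13, 13, 12], [13, 11, 15, 13], [15, 12, 11, 13, 13], [12, 11, 14], [12, 11, 13, 11], [12, 11, 15, 14], [15, 11, 14, 13, 13], [14, 12, 13, 13, 13], [14, 15, 13,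 11, 13], [15, 13, 12, 13, 11], [15, 11, 14, 11], [15, 11, 15, 11, 11], [14, 11, 11], [14, 13, 13, 11, 13], [11, 15, 13, 13], [15, 12], [14, 13, 13, 13, 12, 14], [11, 13, 12, 13], [14, 13, 13, 13, 11], [15, 13, 12, 11, 13, 13], [14, 11, 15, 14], [14, 12, 11, 15], [14, 13, 11, 13, 11], [13, 11, 14, 13, 13], [12, 13, 13, 13], [15, 14, 12, 14], [14, 14, 11, 13, 13, 13], [14, 12, 12], [15, 12, 13], [13, 11], [13, 12, 13, 13], [14, 14, 11], [12, 14, 15, 11], [15, 13, 13], [13, 13, 11, 15, 13, 11], [14, 13, 13, 11], [13, 13, 12, 13, 11], [14, 13, 11, 15, 13, 13], [12, 14, 15, 13, 13], [13, 12, 11, 13, 11], [13, 12, 14, 15], [14, 14, 13, 12], [15, 12, 14, 14, 13], [11, 14, 13, 13, 12], [15, 11, 15], [14, 14, 13, 13, 13, 12], [12, 13, 13, 13, 11], [11, 13], [13, 13, 11], [11, 11, 11], [11, 13, 11, 15, 11], [14, 13, 13, 13, 11, 15, 11], [12, 11, 13, 12, 11], [13, 11, 14, 14, 13, 12], [14, 12, 11, 14],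 [14, 11, 13, 11], [11, 11, 11, 15, 11], [14, 11, 14], [13, 13, 13], [14, 11, 11, 13], [15, 12, 14, 13, 11], [12, 14], [14, 12, 13], [11, 14], [11, 11, 15, 11], [14, 11, 15, 13, 13], [14, 15, 13, 12], [14, 11, 15, 13, 13, 13], [14, 13, 13, 11, 15, 13, 11], [15, 13, 12, 13], [14, 15, 13, 13, 13, 11], [13, 11, 13, 11], [14, 14], [11, 15, 13, 13, 13], [13, 13, 11, 14, 14, 13], [14, 13, 13, 11, 15, 13], [13, 12, 13, 12], [14, 15, 13, 11, 13, 11], [14, 11, 14, 13, 13], [15, 13, 13, 13, 11, 14], [13, 12, 14, 11], [12, 15, 14, 13, 13, 11], [14, 13, 12], [12, 11, 15, 14, 11], [13, 13, 13, 11, 15, 14], [14, 13, 11, 14, 13], [13, 11, 14, 13], [15, 14, 13, 11, 13, 13], [14, 11, 13, 13], [14, 15, 13, 12, 13, 11], [11, 14, 14], [14, 13, 13, 12, 14], [14, 13, 12, 13, 11], [15, 12, 14, 11], [14, 12, 14, 12, 11], [13, 13, 11, 13], [13, 12, 11, 14], [14, 13, 12, 14], [15, 13, 12, 14, 12], [15, 12, 14, 14],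 [12, 12, 11, 13, 11], [14, 15, 13, 13, 13], [11, 11, 13, 12], [11, 13, 11, 14], [15, 12, 12, 11], [13, 13, 13, 11, 14, 14], [13, 11, 15, 11], [13, 13, 11, 14, 14], [14, 14, 12, 12, 13], [13, 11, 15, 11, 13], [14, 14, 12, 13, 12], [14, 11, 15, 13, 11], [14, 13, 11, 13, 13], [14, 15, 11], [15, 14, 12], [15, 14, 11, 13, 13], [14, 14, 13, 11, 13, 11], [14, 15, 13, 12, 11], [13, 12, 15, 13], [15, 11, 13]]) (by decide +kernel) (by decide +kernel)
  have h3 : Nat.card (normalizer (P5 : Set Γ)) = 600 := by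
    obtain ⟨k, i, k1, k2, k3, k4⟩ := card_norm_sylow S
    rw [hS] at k1 k3 k4
    rw [H45.card_mulAut_elem (p := 5) (n := 2) (by norm_num)
      (fun a b => Subtype.ext (comm_P5 _ a.2 _ b.2))
      (fun a => Subtype.ext (wgen_pow comm_P5 (by
        simp only [List.forall_mem_cons, ev_single]
        exact ⟨ord5a ▸ pow_orderOf_eq_one _, ord5b ▸ pow_orderOf_eq_one _, by simp⟩) _ a.2))
      card_P5] at k1
    have k5 := h2.trans (card_le_of_le h1)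
    rw [cent_P5, card_P5] at k3
    rw [k3, card_Γ] at k4
    rw [k3] at k5 ⊢
    have k6 : k ∈ Nat.divisors 480 := Nat.mem_divisors.2 ⟨by simpa using k1, by norm_num⟩
    have k7 : ∀ k ∈ Nat.divisors 480, 24 ≤ k → k = 24 ∨ 448345497600 / (25 * k) % 5 ≠ 1 ∨
        448345497600 % (25 * k) ≠ 0 := by decide +kernel
    rcases k7 k k6 (by omega) with rfl | k8 | k8
    · rfl
    · rw [k4, Nat.mul_div_cancel_left _ (by omega)] at k8; omega
    · rw [k4, Nat.mul_mod_right] at k8; omega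
  have h4 := eq_of_le_of_card_ge h1 (h3 ▸ h2)
  refine ⟨S, hS ▸ card_P5, hS ▸ h3, ?_⟩
  rw [hS]
  set N := normalizer (P5 : Set Γ)
  have m : ∀ x, ev β (σ5 x) ∈ N := fun x => ev_mem fun i hi => norm_P5 i (by
    rcases x with _ | _ | _ | _ | _ | _ | x <;> simp_all [σ5, nth])
  let π := QuotientGroup.mk' (P5.subgroupOf N)
  let g : ℕ → N := fun x => ⟨_, m x⟩
  have hg : Sat g SzH.zs.R := fun r hr => Subtype.ext
    ((map_ev N.subtype g r).trans (satX σ5 _ (by decide +kernel) r hr))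
  have ht : gen (fun x => π (g x)) 5 = ⊤ := by
    rw [← map_gen, eq_top_iff, ← map_top_of_surjective π (QuotientGroup.mk'_surjective _),
      map_le_iff_le_comap, QuotientGroup.comap_map_mk']
    rintro ⟨x, hx⟩ -
    rw [← mem_map_iff_mem N.subtype_injective, Subgroup.map_sup, map_gen, subgroupOf_map_subtype]
    refine (wgen_le (K := _)).2 ?_ (h4 ▸ hx : x ∈ wgen β [[11], [12], [13], [14], [15]])
    simp only [List.forall_mem_cons]
    exact ⟨mem_sup_left ⟨mem_wgen β [11] (by decide), h1 (mem_wgen β [11] (by decide))⟩,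
      mem_sup_left ⟨mem_wgen β [12] (by decide), h1 (mem_wgen β [12] (by decide))⟩,
      mem_sup_right (mem_gen _ (x := 1) (by decide) (by decide)),
      mem_sup_right (mem_gen _ (x := 3) (by decide) (by decide)),
      mem_sup_right (mem_gen _ (x := 5) (by decide) (by decide)), by simp⟩
  obtain ⟨e⟩ := equiv_of_pres (fun x => π (g x)) m5 5 (N := 24 * 1)
    ((SzH.zs.checked.idxLe (Sat.prod (hg.map π)
      (show ∀ r ∈ SzH.zs.R, ev m5 r = 1 by decide +kernel)) (H := ⊥) (by simp [SzH.zs.S])).card_le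
      bot_le ⟨inferInstance, card_bot.le⟩)
    (le_card_gen m5 5 [[], [5], [3], [3, 5], [3, 3], [3, 3, 5], [1], [1, 5], [1, 3], [1, 3, 5], [1, 3, 3], [1, 3, 3, 5], [1, 1], [1, 1, 5], [1, 1, 3], [1, 1, 3, 5], [1, 1, 3, 3], [1, 1, 3, 3, 5], [1, 1, 1], [1, 1, 1, 5], [1, 1, 1, 3], [1, 1, 1, 3, 5], [1, 1, 1, 3, 3], [1, 1, 1, 3, 3, 5]] (by decide +kernel) (by decide +kernel))
    (by rw [Nat.card_prod, Nat.card_perm]; simp [Nat.factorial]) (by
      have := card_eq_card_quotient_mul_card_subgroup (P5.subgroupOf N)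
      rw [Nat.card_congr (subgroupOfEquivOfLe le_normalizer).toEquiv, card_P5, h3] at this
      rw [ht, card_top]
      omega)
  exact ⟨topEquiv.symm.trans ((MulEquiv.subgroupCongr ht.symm).trans e)⟩

end Sz

end Cfsg.Agent.H59
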